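import Mathlib

/-!
# S3509 (regular cycles in primitive groups): interface (helper660)

* `KSet T` : `Ω` is the set of `k`-subsets of `Fin m`, `G` acts through `Sym m` and `T` induces all of `Alt m`;
* `ASRow P` : the statement for almost simple groups with socle in the class `P`;
* `Reg g` : `g` has a regular point (for actions which need not be faithful).
-/

set_option autoImplicit false

namespace Cfsg.Agent.H660.RR

open Subgroup MulAction

/-- the action on `k`-subsets -/
def KSet {G Ω : Type*} [Group G] [MulAction G Ω] (T : Subgroup G) : Prop :=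
  ∃ (m k : ℕ), 5 ≤ m ∧ 1 ≤ k ∧ ∃ e : Ω ≃ {s : Finset (Fin m) // s.card = k},
    (∀ x : G, ∃ τ : Equiv.Perm (Fin m), ∀ ω, (e (x • ω)).1 = (e ω).1.map τ.toEmbedding) ∧
    (∀ τ ∈ alternatingGroup (Fin m), ∃ x ∈ T, ∀ ω, (e (x • ω)).1 = (e ω).1.map τ.toEmbedding)

/-- the row of the simple groups with the property `P` -/
def ASRow (P : ∀ (T : Type) [Group T], Prop) : Prop :=
  ∀ (G Ω : Type) [Group G] [Finite G] [MulAction G Ω] [FaithfulSMul G Ω] [Finite Ω],
    IsPreprimitive G Ω → ∀ (T : Subgroup G) [T.Normal], IsSimpleGroup T → (∃ a b : T, a * b ≠ b * a) →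
    centralizer (T : Set G) = ⊥ → P T → ∀ g : G, (∃ ω : Ω, stabilizer (zpowers g) ω = ⊥) ∨ KSet (Ω := Ω) T

/-- `g` has a regular point on the set of the points with the property `P` -/
def RegP {G X : Type*} [Group G] [MulAction G X] (g : G) (P : X → Prop) : Prop :=
  ∃ x, P x ∧ ∀ k : ℤ, g ^ k • x = x → ∀ y, P y → g ^ k • y = y

theorem reg_iff {G Ω : Type*} [Group G] [MulAction G Ω] [FaithfulSMul G Ω] (g : G) :
    (∃ ω : Ω, stabilizer (zpowers g) ω = ⊥) ↔ ∃ ω : Ω, ∀ k : ℤ, g ^ k • ω = ω → g ^ k = 1 := by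
  refine exists_congr fun ω => ?_
  constructor
  · intro h k hk
    have h1 : (⟨g ^ k, k, rfl⟩ : zpowers g) ∈ stabilizer (zpowers g) ω := hk
    rw [h, mem_bot] at h1
    exact congrArg Subtype.val h1
  · intro h
    rw [eq_bot_iff]
    rintro ⟨_, k, rfl⟩ hx
    rw [mem_bot]
    exact Subtype.ext (h k hx)

theorem reg_iff_regP {G Ω : Type*} [Group G] [MulAction G Ω] [FaithfulSMul G Ω] (g : G) :
    (∃ ω : Ω, stabilizer (zpowers g) ω = ⊥) ↔ RegP g (fun _ : Ω => True) := by
  rw [reg_iff]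
  constructor
  · rintro ⟨ω, h⟩
    exact ⟨ω, trivial, fun k hk y _ => by rw [h k hk, one_smul]⟩
  · rintro ⟨ω, -, h⟩
    refine ⟨ω, fun k hk => ?_⟩
    apply FaithfulSMul.eq_of_smul_eq_smul (α := Ω)
    intro y
    rw [h k hk y trivial, one_smul]

end Cfsg.Agent.H660.RR
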