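import Cfsg.Agent.H660.RR.Dec

/-!
# S3509: the component of a Cartesian decomposition (helper660)

* `Dec.rho` : the action of the stabiliser of an index on its fibre;
* `Dec.primitive` : the component is primitive;
* `Dec.concl` : if the component is the action on `k`-subsets then the conclusion of `S3509`.
-/

set_option autoImplicit false

namespace Cfsg.Agent.H660.RR

open Subgroup MulAction
open scoped Pointwise

section rho

variable {G I X : Type*} [Group G] [MulAction G I] [MulAction G X] {π : X → I}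

/-- the action of the stabiliser of `i` on the fibre over `i` -/
def rho (hπ : ∀ (g : G) (x : X), π (g • x) = g • π x) (i : I) : stabilizer G i →* Equiv.Perm {x : X // π x = i} where
  toFun g :=
    { toFun := fun x => ⟨(g : G) • (x : X), by rw [hπ, x.2]; exact g.2⟩
      invFun := fun x => ⟨(g : G)⁻¹ • (x : X), by rw [hπ, x.2, inv_smul_eq_iff]; exact g.2.symm⟩
      left_inv := fun x => Subtype.ext (inv_smul_smul _ _)
      right_inv := fun x => Subtype.ext (smul_inv_smul _ _) }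
  map_one' := by
    ext x
    exact one_smul G (x : X)
  map_mul' a b := by
    ext x
    exact mul_smul (a : G) (b : G) (x : X)

theorem rho_apply (hπ : ∀ (g : G) (x : X), π (g • x) = g • π x) (i : I) (g : stabilizer G i) (x : {x : X // π x = i}) :
    ((rho hπ i g x : {x : X // π x = i}) : X) = (g : G) • (x : X) := rfl

end rho

variable {G Ω I X : Type*} [Group G] [MulAction G Ω] [MulAction G I] [MulAction G X] {π : X → I} {ev : Ω → I → X}

/-- a section with given coordinates -/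
theorem Dec.exists_coord (h : Dec (G := G) π ev) {i0 : I} {g : I → G} (hg : ∀ i, g i • i0 = i)
    (y : I → {x : X // π x = i0}) : ∃ w, ∀ i, ev w i = g i • (y i : X) := by
  obtain ⟨w, hw⟩ := h.surj (fun i => g i • (y i : X)) (fun i => by rw [h.hπ, (y i).2, hg])
  exact ⟨w, fun i => congrFun hw i⟩

/-- **The component is primitive.** -/
theorem Dec.primitive (h : Dec (G := G) π ev) (hp : IsPreprimitive G Ω) (hI : IsPretransitive G I)
    (hK : ∀ w w' : Ω, ∃ n : G, (∀ i : I, n • i = i) ∧ n • w = w') (i0 : I) :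
    IsPreprimitive (rho h.hπ i0).range {x : X // π x = i0} := by
  classical
  choose g hg using fun i : I => hI.exists_smul_eq i0 i
  have htr : IsPretransitive (rho h.hπ i0).range {x : X // π x = i0} := by
    refine ⟨fun x y => ?_⟩
    obtain ⟨w, hw⟩ := h.exists_coord hg (fun _ => ⟨(g i0)⁻¹ • (x : X), by rw [h.hπ, x.2, inv_smul_eq_iff, hg]⟩)
    obtain ⟨w', hw'⟩ := h.exists_coord hg (fun _ => ⟨(g i0)⁻¹ • (y : X), by rw [h.hπ, y.2, inv_smul_eq_iff, hg]⟩)
    obtain ⟨n, hn, hnw⟩ := hK w w'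
    refine ⟨⟨rho h.hπ i0 ⟨n, hn i0⟩, _, rfl⟩, ?_⟩
    apply Subtype.ext
    show n • (x : X) = y
    have h1 := h.eq n w i0
    rw [hn, hnw, hw, hw', smul_inv_smul, smul_inv_smul] at h1
    exact h1.symm
  refine { htr with isTrivialBlock_of_isBlock := ?_ }
  intro B hB
  rcases B.eq_empty_or_nonempty with rfl | ⟨b0, hb0⟩
  · exact Or.inl Set.subsingleton_empty
  -- the coordinates
  have hyπ : ∀ (w : Ω) (i : I), π ((g i)⁻¹ • ev w i) = i0 := by
    intro w i
    rw [h.hπ, h.hev, inv_smul_eq_iff, hg]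
  obtain ⟨y, hy⟩ : ∃ y : Ω → I → {x : X // π x = i0}, ∀ w i, ((y w i : {x : X // π x = i0}) : X) = (g i)⁻¹ • ev w i :=
    ⟨fun w i => ⟨(g i)⁻¹ • ev w i, hyπ w i⟩, fun w i => rfl⟩
  -- the block
  let 𝔅 : Set Ω := {w | ∀ i, y w i ∈ B}
  -- the action in coordinates
  have hu : ∀ (x : G) (j : I), (g (x • j))⁻¹ * x * g j ∈ stabilizer G i0 := by
    intro x j
    rw [mem_stabilizer_iff, mul_smul, mul_smul, hg, inv_smul_eq_iff, hg]
  have hact : ∀ (x : G) (w : Ω) (j : I), y (x • w) (x • j) = rho h.hπ i0 ⟨_, hu x j⟩ (y w j) := by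
    intro x w j
    apply Subtype.ext
    rw [rho_apply, hy, hy, h.eq, smul_smul, smul_smul]
    show _ = (((g (x • j))⁻¹ * x * g j) * (g j)⁻¹) • ev w j
    congr 1
    group
  have hblock : IsBlock G 𝔅 := by
    rw [isBlock_iff_smul_eq_of_nonempty]
    rintro x ⟨w, ⟨v, hv, rfl⟩, hw⟩
    have hv' : ∀ i, y v i ∈ B := hv
    have hw' : ∀ i, y (x • v) i ∈ B := hw
    have hBj : ∀ j, (⟨rho h.hπ i0 ⟨_, hu x j⟩, _, rfl⟩ : (rho h.hπ i0).range) • B = B := by
      intro j
      rw [isBlock_iff_smul_eq_of_nonempty] at hB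
      apply hB
      refine ⟨y (x • v) (x • j), ⟨y v j, hv' j, ?_⟩, hw' _⟩
      exact (hact x v j).symm
    have hmem : ∀ (u : Ω) (j : I), y (x • u) (x • j) ∈ B ↔ y u j ∈ B := by
      intro u j
      rw [hact]
      conv_lhs => rw [← hBj j]
      constructor
      · rintro ⟨z, hz, hzu⟩
        have h1 : rho h.hπ i0 ⟨_, hu x j⟩ z = rho h.hπ i0 ⟨_, hu x j⟩ (y u j) := hzu
        rw [Equiv.apply_eq_iff_eq] at h1
        rwa [← h1]
      · intro hz
        exact ⟨_, hz, rfl⟩
    apply Set.Subset.antisymm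
    · rintro _ ⟨u, hu', rfl⟩
      have hu2 : ∀ i, y u i ∈ B := hu'
      show ∀ i, y (x • u) i ∈ B
      intro i
      have h1 := (hmem u (x⁻¹ • i)).2 (hu2 _)
      rwa [smul_inv_smul] at h1
    · intro u hu'
      have hu2 : ∀ i, y u i ∈ B := hu'
      refine ⟨x⁻¹ • u, ?_, smul_inv_smul x u⟩
      show ∀ i, y (x⁻¹ • u) i ∈ B
      intro i
      have h1 := (hmem (x⁻¹ • u) i).1
      rw [smul_inv_smul] at h1
      exact h1 (hu2 _)
  have hcoord : ∀ s : I → {x : X // π x = i0}, ∃ w, ∀ i, y w i = s i := by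
    intro s
    obtain ⟨w, hw⟩ := h.exists_coord hg s
    refine ⟨w, fun i => ?_⟩
    apply Subtype.ext
    rw [hy, hw, inv_smul_smul]
  rcases hp.isTrivialBlock_of_isBlock hblock with h1 | h1
  · left
    intro b hb b' hb'
    obtain ⟨w, hw⟩ := hcoord (fun _ => b)
    obtain ⟨w', hw'⟩ := hcoord (Function.update (fun _ => b) i0 b')
    have h2 : w = w' := by
      apply h1
      · show ∀ i, y w i ∈ B
        intro i
        rw [hw]
        exact hb
      · show ∀ i, y w' i ∈ B
        intro i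
        rw [hw']
        by_cases hi : i = i0
        · subst hi
          rw [Function.update_self]
          exact hb'
        · rw [Function.update_of_ne hi]
          exact hb
    have h3 := hw i0
    rw [h2, hw', Function.update_self] at h3
    exact h3.symm
  · right
    rw [Set.eq_univ_iff_forall]
    intro b
    obtain ⟨w, hw⟩ := hcoord (fun _ => b)
    have h2 : w ∈ 𝔅 := by rw [h1]; exact Set.mem_univ w
    have h3 : ∀ i, y w i ∈ B := h2
    have h4 := h3 i0
    rwa [hw] at h4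

/-- coordinates in the fixed fibre -/
theorem Dec.exists_y (h : Dec (G := G) π ev) {i0 : I} {g : I → G} (hg : ∀ i, g i • i0 = i) :
    ∃ y : Ω ≃ (I → {x : X // π x = i0}), (∀ w i, ((y w i : {x : X // π x = i0}) : X) = (g i)⁻¹ • ev w i) ∧
      ∀ (x : G) (j : I), ∃ u : (rho h.hπ i0).range, ∀ w, y (x • w) (x • j) = (u : Equiv.Perm _) (y w j) := by
  have hyπ : ∀ (w : Ω) (i : I), π ((g i)⁻¹ • ev w i) = i0 := by
    intro w i
    rw [h.hπ, h.hev, inv_smul_eq_iff, hg]
  have hu : ∀ (x : G) (j : I), (g (x • j))⁻¹ * x * g j ∈ stabilizer G i0 := by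
    intro x j
    rw [mem_stabilizer_iff, mul_smul, mul_smul, hg, inv_smul_eq_iff, hg]
  refine ⟨Equiv.ofBijective (fun w i => ⟨(g i)⁻¹ • ev w i, hyπ w i⟩) ⟨?_, ?_⟩, fun w i => rfl, fun x j =>
    ⟨⟨rho h.hπ i0 ⟨_, hu x j⟩, _, rfl⟩, fun w => ?_⟩⟩
  · intro w w' hw
    apply h.inj
    funext i
    have h1 : (g i)⁻¹ • ev w i = (g i)⁻¹ • ev w' i := congrArg Subtype.val (congrFun hw i)
    exact smul_left_cancel _ h1
  · intro s
    obtain ⟨w, hw⟩ := h.exists_coord hg s
    refine ⟨w, ?_⟩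
    funext i
    apply Subtype.ext
    show (g i)⁻¹ • ev w i = _
    rw [hw, inv_smul_smul]
  · apply Subtype.ext
    show (g (x • j))⁻¹ • ev (x • w) (x • j) = ((g (x • j))⁻¹ * x * g j) • (g j)⁻¹ • ev w j
    rw [h.eq, smul_smul, smul_smul]
    congr 1
    group

/-- the second alternative of `S3509` -/
def PAlt (G Ω : Type*) [Group G] [MulAction G Ω] : Prop :=
  ∃ (m k r : ℕ), 5 ≤ m ∧ 1 ≤ k ∧ 1 ≤ r ∧
    ∃ e : Ω ≃ (Fin r → {s : Finset (Fin m) // s.card = k}),
      (∀ x : G, ∃ (π : Equiv.Perm (Fin r)) (τ : Fin r → Equiv.Perm (Fin m)),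
          ∀ (ω : Ω) (i : Fin r), ((e (x • ω) i : {s : Finset (Fin m) // s.card = k}) : Finset (Fin m)) =
            (((e ω) (π.symm i) : {s : Finset (Fin m) // s.card = k}) : Finset (Fin m)).map (τ i).toEmbedding) ∧
      (∀ τ : Fin r → Equiv.Perm (Fin m), (∀ i, τ i ∈ alternatingGroup (Fin m)) →
          ∃ x : G, ∀ (ω : Ω) (i : Fin r), ((e (x • ω) i : {s : Finset (Fin m) // s.card = k}) : Finset (Fin m)) =
            (((e ω) i : {s : Finset (Fin m) // s.card = k}) : Finset (Fin m)).map (τ i).toEmbedding)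

/-- **the conclusion from the component** -/
theorem Dec.concl [Finite I] (h : Dec (G := G) π ev) (hI : IsPretransitive G I) (i0 : I)
    (T' : Subgroup (rho h.hπ i0).range) (hK : KSet (Ω := {x : X // π x = i0}) T')
    (hT : ∀ g : I → G, (∀ i, g i • i0 = i) → ∀ t : I → T', ∃ x : G, (∀ i : I, x • i = i) ∧
      ∀ (i : I) (y : {x : X // π x = i0}), x • g i • (y : X) =
        g i • (((((t i : (rho h.hπ i0).range) : Equiv.Perm {x : X // π x = i0}) y) : {x : X // π x = i0}) : X)) :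
    PAlt G Ω := by
  classical
  obtain ⟨m, k, hm, hk, e0, h1, h2⟩ := hK
  choose g hg using fun i : I => hI.exists_smul_eq i0 i
  obtain ⟨y, hy1, hy2⟩ := h.exists_y hg
  obtain ⟨ε⟩ : Nonempty (I ≃ Fin (Nat.card I)) := ⟨Finite.equivFin I⟩
  have hr : 1 ≤ Nat.card I := by
    have : Nonempty I := ⟨i0⟩
    exact Nat.card_pos
  refine ⟨m, k, Nat.card I, hm, hk, hr, y.trans (Equiv.arrowCongr ε e0), fun x => ?_, fun τ hτ => ?_⟩
  · choose u hu using fun j => hy2 x j
    choose τ0 hτ0 using fun j => h1 (u j)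
    refine ⟨ε.symm.trans ((MulAction.toPerm x).trans ε), fun i => τ0 (x⁻¹ • ε.symm i), fun ω i => ?_⟩
    show (e0 (y (x • ω) (ε.symm i))).1 = (e0 (y ω (ε.symm (ε (x⁻¹ • ε.symm i))))).1.map _
    rw [Equiv.symm_apply_apply, ← hτ0]
    congr 2
    have h3 := hu (x⁻¹ • ε.symm i) ω
    rw [smul_inv_smul] at h3
    exact h3
  · choose t ht1 ht2 using fun i : I => h2 (τ (ε i)) (hτ _)
    obtain ⟨x, hx1, hx2⟩ := hT g hg (fun i => ⟨t i, ht1 i⟩)
    refine ⟨x, fun ω i => ?_⟩
    show (e0 (y (x • ω) (ε.symm i))).1 = (e0 (y ω (ε.symm i))).1.map _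
    have h3 := ht2 (ε.symm i) (y ω (ε.symm i))
    rw [Equiv.apply_symm_apply] at h3
    rw [← h3]
    congr 2
    apply Subtype.ext
    rw [hy1]
    have h4 := h.eq x ω (ε.symm i)
    rw [hx1] at h4
    rw [h4, inv_smul_eq_iff]
    have h5 := hx2 (ε.symm i) (y ω (ε.symm i))
    rw [hy1, smul_inv_smul] at h5
    exact h5

end Cfsg.Agent.H660.RR
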