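import Cfsg.Agent.H660.RR.Final

/-!
# S3509: coordinates for a partition of the simple factors (helper660)

`exDec` : the coordinate sets are the orbits of the subgroups of `N` without components in a class (compare
`H855/B57/ProdCase.lean`).
-/

set_option autoImplicit false

namespace Cfsg.Agent.H660.RR

open Subgroup MulAction Cfsg.Agent.H893 Cfsg.Agent.H893.Fac

section Coord

variable {G Ω : Type*} [Group G] [MulAction G Ω] {N : Subgroup G} {m : ℕ} {T : Fin m → Subgroup G}

/-- `(j, w)` and `(j, n w)` are equivalent if `n ∈ N` has no components in the class `j` -/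
def cSetoid (e : N ≃* (∀ i, T i)) (c : Fin m → Fin m) (Ω : Type*) [MulAction G Ω] :
    Setoid ({j : Fin m // c j = j} × Ω) where
  r p q := p.1 = q.1 ∧ ∃ n : N, (∀ l, c l = p.1.1 → e n l = 1) ∧ q.2 = (n : G) • p.2
  iseqv :=
    { refl := fun p => ⟨rfl, 1, fun l _ => by rw [map_one]; rfl, by simp⟩
      symm := by
        rintro ⟨i, w⟩ ⟨j, v⟩ ⟨hij, n, hn, hv⟩
        change i = j at hij
        change v = (n : G) • w at hv
        subst hij
        refine ⟨rfl, n⁻¹, fun l hl => ?_, ?_⟩
        · rw [map_inv, Pi.inv_apply, hn l hl, inv_one]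
        · change w = ((n⁻¹ : N) : G) • v
          rw [hv, InvMemClass.coe_inv, inv_smul_smul]
      trans := by
        rintro ⟨i, w⟩ ⟨j, v⟩ ⟨k, u⟩ ⟨hij, n, hn, hv⟩ ⟨hjk, n', hn', hu⟩
        change i = j at hij
        change j = k at hjk
        subst hij hjk
        change v = (n : G) • w at hv
        change u = (n' : G) • v at hu
        refine ⟨rfl, n' * n, fun l hl => ?_, ?_⟩
        · rw [map_mul, Pi.mul_apply, hn l hl, hn' l hl, one_mul]
        · change u = ((n' * n : N) : G) • w
          rw [hu, hv, Subgroup.coe_mul, mul_smul] }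

/-- the disjoint union of the coordinate sets -/
def CPt (e : N ≃* (∀ i, T i)) (c : Fin m → Fin m) (Ω : Type*) [MulAction G Ω] : Type _ := Quotient (cSetoid e c Ω)

variable {e : N ≃* (∀ i, T i)} {c : Fin m → Fin m}

/-- the coordinate of a point -/
def cpt (e : N ≃* (∀ i, T i)) (c : Fin m → Fin m) (j : {j : Fin m // c j = j}) (w : Ω) : CPt e c Ω :=
  Quotient.mk (cSetoid e c Ω) (j, w)

theorem cpt_eq {j : {j : Fin m // c j = j}} {w v : Ω} :
    cpt e c j w = cpt e c j v ↔ ∃ n : N, (∀ l, c l = j.1 → e n l = 1) ∧ v = (n : G) • w := by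
  constructor
  · intro h
    have h1 : (cSetoid e c Ω) (j, w) (j, v) := Quotient.exact h
    exact h1.2
  · intro h
    exact Quotient.sound ⟨rfl, h⟩

/-- the projection -/
def cprj (x : CPt e c Ω) : {j : Fin m // c j = j} :=
  Quotient.lift (s := cSetoid e c Ω) (fun p : {j : Fin m // c j = j} × Ω => p.1) (fun _ _ h => h.1) x

theorem exists_cpt (x : CPt e c Ω) : ∃ w : Ω, x = cpt e c (cprj x) w := by
  induction x using Quotient.inductionOn with
  | h p => exact ⟨p.2, rfl⟩

instance [Finite Ω] : Finite (CPt e c Ω) := by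
  unfold CPt
  infer_instance

variable (hf : Fac N m T e)

/-- the action on the classes -/
@[reducible] noncomputable def actI (hcc : ∀ i, c (c i) = c i)
    (hcG : ∀ (x : G) i j, c i = c j → c (hf.perm x i) = c (hf.perm x j)) : MulAction G {j : Fin m // c j = j} where
  smul x j := ⟨c (hf.perm x j.1), hcc _⟩
  one_smul j := by
    apply Subtype.ext
    show c (hf.perm 1 j.1) = j.1
    rw [map_one]
    exact j.2
  mul_smul x y j := by
    apply Subtype.ext
    show c (hf.perm (x * y) j.1) = c (hf.perm x (c (hf.perm y j.1)))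
    rw [map_mul]
    exact hcG x _ _ (hcc _).symm

variable [N.Normal]

/-- `g • (j, w) = (g j, g w)`. -/
noncomputable def csmul (hcc : ∀ i, c (c i) = c i)
    (hcG : ∀ (x : G) i j, c i = c j → c (hf.perm x i) = c (hf.perm x j)) (g : G) (x : CPt e c Ω) : CPt e c Ω :=
  Quotient.lift (s := cSetoid e c Ω) (fun p : {j : Fin m // c j = j} × Ω =>
    cpt e c ((actI hf hcc hcG).smul g p.1) (g • p.2)) (by
    rintro ⟨i, w⟩ ⟨j, v⟩ ⟨hij, n, hn, hv⟩
    change i = j at hij
    subst hij
    change v = (n : G) • w at hv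
    change cpt e c ((actI hf hcc hcG).smul g i) (g • w) = cpt e c ((actI hf hcc hcG).smul g i) (g • v)
    rw [cpt_eq]
    refine ⟨Fac.cj N g n, fun l hl => ?_, ?_⟩
    · have h1 : hf.perm g (hf.perm g⁻¹ l) = l := by
        rw [← Equiv.Perm.mul_apply, ← map_mul, mul_inv_cancel, map_one]
        rfl
      have h2 : c (hf.perm g⁻¹ l) = i.1 := by
        have h3 := hcG g⁻¹ l (hf.perm g i.1) (by
          have h4 : c l = c (hf.perm g i.1) := hl
          exact h4)
        rw [h3, ← Equiv.Perm.mul_apply, ← map_mul, inv_mul_cancel, map_one]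
        exact i.2
      have h3 := hf.cj_eq_one g (hf.perm g⁻¹ l) l (by
        have h4 := hf.perm_spec g (hf.perm g⁻¹ l)
        rwa [h1] at h4) n
      rw [h3]
      exact hn _ h2
    · change g • v = (g * (n : G) * g⁻¹) • g • w
      rw [hv, smul_smul, smul_smul]
      congr 1
      group) x

/-- the action on the coordinate sets -/
@[reducible] noncomputable def actX (hcc : ∀ i, c (c i) = c i)
    (hcG : ∀ (x : G) i j, c i = c j → c (hf.perm x i) = c (hf.perm x j)) : MulAction G (CPt e c Ω) where
  smul := csmul hf hcc hcG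
  one_smul x := by
    obtain ⟨w, hw⟩ := exists_cpt x
    rw [hw]
    change cpt e c ((actI hf hcc hcG).smul 1 (cprj x)) ((1 : G) • w) = cpt e c (cprj x) w
    rw [one_smul]
    congr 1
    exact (actI hf hcc hcG).one_smul _
  mul_smul a b x := by
    obtain ⟨w, hw⟩ := exists_cpt x
    rw [hw]
    change cpt e c ((actI hf hcc hcG).smul (a * b) (cprj x)) ((a * b) • w) =
      cpt e c ((actI hf hcc hcG).smul a ((actI hf hcc hcG).smul b (cprj x))) (a • b • w)
    rw [mul_smul]
    congr 1
    exact (actI hf hcc hcG).mul_smul _ _ _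

end Coord

/-- **The coordinates.** -/
theorem exDec : ExDec := by
  intro G Ω _ _ _ _ N _ m T e hf ω htr c hcc hcG hprod
  classical
  refine ⟨{j : Fin m // c j = j}, CPt e c Ω, actI hf hcc hcG, actX hf hcc hcG, inferInstance, cprj,
    fun w j => cpt e c j w, fun i => ⟨c i, hcc i⟩, ?_⟩
  letI aI := actI hf hcc hcG
  letI aX : MulAction G (CPt e c Ω) := actX hf hcc hcG
  refine { dec := ?_, jsurj := ?_, jiff := ?_, jperm := ?_, eviff := ?_ }
  · refine { hπ := ?_, hev := fun w i => rfl, surj := ?_, inj := ?_, eq := fun g w i => rfl }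
    · intro g x
      obtain ⟨w, hw⟩ := exists_cpt x
      rw [hw]
      rfl
    · intro s hs
      have h1 : ∀ j, ∃ n : N, s j = cpt e c j ((n : G) • ω) := by
        intro j
        obtain ⟨w, hw⟩ := exists_cpt (s j)
        rw [hs] at hw
        obtain ⟨n, rfl⟩ := htr w
        exact ⟨n, hw⟩
      choose n hn using h1
      obtain ⟨n0, hn0⟩ : ∃ n0 : N, ∀ l, e n0 l = e (n ⟨c l, hcc l⟩) l :=
        ⟨e.symm (fun l => e (n ⟨c l, hcc l⟩) l), fun l => by rw [MulEquiv.apply_symm_apply]⟩
      refine ⟨(n0 : G) • ω, ?_⟩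
      funext j
      show cpt e c j ((n0 : G) • ω) = s j
      rw [hn j, cpt_eq]
      refine ⟨n j * n0⁻¹, fun l hl => ?_, ?_⟩
      · rw [map_mul, map_inv, Pi.mul_apply, Pi.inv_apply, hn0]
        have h2 : (⟨c l, hcc l⟩ : {j : Fin m // c j = j}) = j := Subtype.ext hl
        rw [h2, mul_inv_cancel]
      · rw [Subgroup.coe_mul, InvMemClass.coe_inv, mul_smul, inv_smul_smul]
    · intro w v h
      obtain ⟨u, rfl⟩ := htr w
      obtain ⟨s, rfl⟩ := htr v
      have h1 : ((u⁻¹ * s : N) : G) • ω = ω := by
        rw [hprod]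
        intro j
        by_cases hj : c j = j
        · have h2 : cpt e c ⟨j, hj⟩ ((u : G) • ω) = cpt e c ⟨j, hj⟩ ((s : G) • ω) := congrFun h ⟨j, hj⟩
          obtain ⟨n, hn, h3⟩ := cpt_eq.1 h2
          have h4 : ((u⁻¹ * n⁻¹ * s : N) : G) • ω = ω := by
            show ((u : G)⁻¹ * (n : G)⁻¹ * (s : G)) • ω = ω
            rw [mul_smul, mul_smul, h3, inv_smul_smul, inv_smul_smul]
          rw [hprod] at h4
          have h5 := h4 j
          have h6 : (fun i => if c i = j then e (u⁻¹ * n⁻¹ * s) i else 1) =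
              (fun i => if c i = j then e (u⁻¹ * s) i else 1) := by
            funext i
            by_cases hi : c i = j
            · rw [if_pos hi, if_pos hi, map_mul, map_mul, map_mul, map_inv, map_inv, Pi.mul_apply, Pi.mul_apply,
                Pi.mul_apply, Pi.inv_apply, Pi.inv_apply, hn i hi, inv_one, mul_one]
            · rw [if_neg hi, if_neg hi]
          rwa [h6] at h5
        · have h6 : (fun i => if c i = j then e (u⁻¹ * s) i else 1) = 1 := by
            funext i
            rw [if_neg]
            · rfl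
            · intro hi
              apply hj
              rw [← hi, hcc]
          rw [h6, map_one, OneMemClass.coe_one, one_smul]
      have h2 : ((u : G)⁻¹ * (s : G)) • ω = ω := h1
      rw [mul_smul, inv_smul_eq_iff] at h2
      exact h2.symm
  · intro j
    exact ⟨j.1, Subtype.ext j.2⟩
  · intro i j
    exact ⟨fun h => congrArg Subtype.val h, fun h => Subtype.ext h⟩
  · intro x i
    apply Subtype.ext
    show c (hf.perm x (c i)) = c (hf.perm x i)
    exact hcG x _ _ (hcc i)
  · intro i w v
    exact cpt_eq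

end Cfsg.Agent.H660.RR
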