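import Cfsg.Agent.H660.RR.Comp
import Cfsg.Agent.H893.PPow

/-!
# S3509: the components of a primitive group with a nonabelian minimal normal subgroup (helper660)

* `Crd` : the Cartesian decomposition attached to a `G`-invariant partition of the simple factors;
* `Crd.ph` : a factor as a subgroup of the component; simple, conjugation, transitivity.
-/

set_option autoImplicit false

namespace Cfsg.Agent.H660.RR

open Subgroup MulAction Cfsg.Agent.H893 Cfsg.Agent.H893.Fac

variable {G Ω I X : Type*} [Group G] [MulAction G Ω] [MulAction G I] [MulAction G X]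

/-- the decomposition attached to the partition `c` of the factors -/
structure Crd {N : Subgroup G} {m : ℕ} {T : Fin m → Subgroup G} {e : N ≃* (∀ i, T i)} (hf : Fac N m T e)
    (c : Fin m → Fin m) (π : X → I) (ev : Ω → I → X) (jj : Fin m → I) : Prop where
  dec : Dec (G := G) π ev
  jsurj : Function.Surjective jj
  jiff : ∀ i j, jj i = jj j ↔ c i = c j
  jperm : ∀ (x : G) i, x • jj i = jj (hf.perm x i)
  eviff : ∀ i (w v : Ω), ev w (jj i) = ev v (jj i) ↔ ∃ n : N, (∀ l, c l = c i → e n l = 1) ∧ v = (n : G) • w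

variable {N : Subgroup G} {m : ℕ} {T : Fin m → Subgroup G} {e : N ≃* (∀ i, T i)} {hf : Fac N m T e}
  {c : Fin m → Fin m} {π : X → I} {ev : Ω → I → X} {jj : Fin m → I}

namespace Crd

variable (C : Crd hf c π ev jj)

include C

theorem perm_N (n : N) : hf.perm (n : G) = 1 := hf.le_ker_perm n.2

theorem smul_I (n : N) (i : I) : (n : G) • i = i := by
  obtain ⟨a, rfl⟩ := C.jsurj i
  rw [C.jperm, C.perm_N]
  rfl

theorem N_le (i : I) : N ≤ stabilizer G i := fun n hn => C.smul_I ⟨n, hn⟩ i

theorem exists_ev [Nonempty Ω] {i : I} {x : X} (hx : π x = i) : ∃ w, ev w i = x := by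
  classical
  obtain ⟨w0⟩ := (inferInstance : Nonempty Ω)
  obtain ⟨w, hw⟩ := C.dec.surj (Function.update (ev w0) i x) (fun j => by
    by_cases hj : j = i
    · subst hj
      rw [Function.update_self]
      exact hx
    · rw [Function.update_of_ne hj, C.dec.hev])
  exact ⟨w, by rw [hw, Function.update_self]⟩

/-- elements without components in the class act trivially on the fibre -/
theorem triv [Nonempty Ω] {a : Fin m} {n : N} (hn : ∀ l, c l = c a → e n l = 1) {x : X} (hx : π x = jj a) :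
    (n : G) • x = x := by
  obtain ⟨w, rfl⟩ := C.exists_ev hx
  have h1 := C.dec.eq n w (jj a)
  rw [C.smul_I] at h1
  rw [← h1]
  exact ((C.eviff a w ((n : G) • w)).2 ⟨n, hn, rfl⟩).symm

theorem congr [Nonempty Ω] {a : Fin m} {n n' : N} (hn : ∀ l, c l = c a → e n l = e n' l) {x : X} (hx : π x = jj a) :
    (n : G) • x = (n' : G) • x := by
  have h1 := C.triv (a := a) (n := n'⁻¹ * n) (fun l hl => by
    rw [map_mul, map_inv, Pi.mul_apply, Pi.inv_apply, hn l hl, inv_mul_cancel]) hx
  rw [Subgroup.coe_mul, InvMemClass.coe_inv, mul_smul, inv_smul_eq_iff] at h1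
  exact h1

/-- elements of the class part are determined by the fibre -/
theorem eq_one [FaithfulSMul G Ω] [Nonempty Ω] {a : Fin m} {n : N} (hn : ∀ l, c l ≠ c a → e n l = 1)
    (h : ∀ x, π x = jj a → (n : G) • x = x) : n = 1 := by
  apply Subtype.ext
  apply FaithfulSMul.eq_of_smul_eq_smul (α := Ω)
  intro w
  rw [OneMemClass.coe_one, one_smul]
  apply C.dec.inj
  funext i
  obtain ⟨b, rfl⟩ := C.jsurj i
  have h1 := C.dec.eq n w (jj b)
  rw [C.smul_I] at h1
  rw [h1]
  by_cases hb : c b = c a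
  · apply h
    rw [C.dec.hev, C.jiff, hb]
  · exact C.triv (a := b) (fun l hl => hn l (by rw [hl]; exact hb)) (C.dec.hev w _)

/-- the transitivity of `N` on the fibre -/
theorem tr [Nonempty Ω] (htr : ∀ w v : Ω, ∃ n : N, v = (n : G) • w) {a : Fin m} {x y : X} (hx : π x = jj a)
    (hy : π y = jj a) : ∃ n : N, (n : G) • x = y := by
  obtain ⟨w, rfl⟩ := C.exists_ev hx
  obtain ⟨v, rfl⟩ := C.exists_ev hy
  obtain ⟨n, rfl⟩ := htr w v
  refine ⟨n, ?_⟩
  have h1 := C.dec.eq n w (jj a)
  rw [C.smul_I] at h1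
  exact h1.symm

end Crd

/-- the representation of `N` on the fibre -/
def rN (C : Crd hf c π ev jj) (i : I) : N →* (rho C.dec.hπ i).range :=
  (rho C.dec.hπ i).rangeRestrict.comp (Subgroup.inclusion (C.N_le i))

theorem rN_apply (C : Crd hf c π ev jj) (i : I) (n : N) (x : {x : X // π x = i}) :
    ((((rN C i n : (rho C.dec.hπ i).range) : Equiv.Perm {x : X // π x = i}) x : {x : X // π x = i}) : X) =
      (n : G) • (x : X) := rfl

/-- the representation of a factor on the fibre -/
def ph (C : Crd hf c π ev jj) (i : I) (l : Fin m) : T l →* (rho C.dec.hπ i).range :=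
  (rN C i).comp (Subgroup.inclusion (hf.le l))

namespace Crd

variable (C : Crd hf c π ev jj)

theorem e_coe (t : ∀ l, T l) (l : Fin m) : e ⟨((e.symm t : N) : G), (e.symm t).2⟩ l = t l := by
  have h1 : (⟨((e.symm t : N) : G), (e.symm t).2⟩ : N) = e.symm t := rfl
  rw [h1, MulEquiv.apply_symm_apply]

include C

/-- the coordinates of an element of a factor -/
theorem e_incl (l : Fin m) (t : T l) : e (Subgroup.inclusion (hf.le l) t) = Pi.mulSingle l t := by
  have h1 : Subgroup.inclusion (hf.le l) t = e.symm (Pi.mulSingle l t) := by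
    apply Subtype.ext
    rw [hf.single]
    rfl
  rw [h1, MulEquiv.apply_symm_apply]

theorem ph_inj [FaithfulSMul G Ω] [Nonempty Ω] {a l : Fin m} (hl : c l = c a) :
    Function.Injective (ph C (jj a) l) := by
  rw [injective_iff_map_eq_one]
  intro t ht
  have h1 : Subgroup.inclusion (hf.le l) t = 1 := by
    apply C.eq_one (a := a)
    · intro k hk
      rw [C.e_incl, Pi.mulSingle_eq_of_ne]
      rintro rfl
      exact hk hl
    · intro x hx
      have h2 : (ph C (jj a) l t : Equiv.Perm {x : X // π x = jj a}) ⟨x, hx⟩ = ⟨x, hx⟩ := by rw [ht]; rfl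
      exact congrArg Subtype.val h2
  exact Subtype.ext (congrArg (fun z : N => (z : G)) h1)

/-- a factor as a subgroup of the component -/
theorem simple [FaithfulSMul G Ω] [Nonempty Ω] {a l : Fin m} (hl : c l = c a) :
    IsSimpleGroup (ph C (jj a) l).range := by
  have := hf.simple l
  exact (MulEquiv.isSimpleGroup_congr (MonoidHom.ofInjective (C.ph_inj hl))).1 this

theorem nonab [FaithfulSMul G Ω] [Nonempty Ω] {a l : Fin m} (hl : c l = c a) :
    ∃ x y : (ph C (jj a) l).range, x * y ≠ y * x := by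
  obtain ⟨x, y, hxy⟩ := hf.nonab l
  refine ⟨MonoidHom.ofInjective (C.ph_inj hl) x, MonoidHom.ofInjective (C.ph_inj hl) y, fun h => hxy ?_⟩
  rw [← map_mul, ← map_mul, (MonoidHom.ofInjective (C.ph_inj hl)).injective.eq_iff] at h
  exact h

/-- conjugation of the factors in the component -/
theorem conj_range {a l : Fin m} (x0 : stabilizer G (jj a)) :
    (ph C (jj a) (hf.perm x0 l)).range =
      ((ph C (jj a) l).range).map (MulAut.conj ((rho C.dec.hπ (jj a)).rangeRestrict x0)).toMonoidHom := by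
  have hspec := hf.perm_spec x0 l
  have hval : ∀ (k : Fin m) (t : T k) (x : {x : X // π x = jj a}),
      ((((ph C (jj a) k t : (rho C.dec.hπ (jj a)).range) : Equiv.Perm {x : X // π x = jj a}) x :
        {x : X // π x = jj a}) : X) = (t : G) • (x : X) := fun k t x => rfl
  have hconj : ∀ (s : T l) (t : T (hf.perm x0 l)), (t : G) = x0 * s * (x0 : G)⁻¹ →
      ph C (jj a) (hf.perm x0 l) t = (rho C.dec.hπ (jj a)).rangeRestrict x0 * ph C (jj a) l s *
        ((rho C.dec.hπ (jj a)).rangeRestrict x0)⁻¹ := by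
    intro s t hst
    rw [eq_mul_inv_iff_mul_eq]
    apply Subtype.ext
    ext x
    show (t : G) • (x0 : G) • (x : X) = (x0 : G) • (s : G) • (x : X)
    rw [hst, smul_smul, smul_smul]
    congr 1
    group
  apply le_antisymm
  · rintro _ ⟨t, rfl⟩
    have h1 : (t : G) ∈ (T l).map (MulAut.conj (x0 : G)).toMonoidHom := by
      rw [← hspec]; exact t.2
    obtain ⟨s, hs, hst⟩ := h1
    exact ⟨ph C (jj a) l ⟨s, hs⟩, ⟨⟨s, hs⟩, rfl⟩, (hconj ⟨s, hs⟩ t hst.symm).symm⟩
  · rintro _ ⟨_, ⟨s, rfl⟩, rfl⟩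
    have h1 : (x0 : G) * s * (x0 : G)⁻¹ ∈ T (hf.perm x0 l) := by
      rw [hspec]; exact ⟨s, s.2, rfl⟩
    exact ⟨⟨_, h1⟩, hconj s ⟨_, h1⟩ rfl⟩

omit C in
/-- from the component to the fibres -/
theorem regP_of {i : I} (h : Dec (G := G) π ev) {g : G} (hg : g ∈ stabilizer G i) (x : {x : X // π x = i})
    (hx : ∀ k : ℤ, ((rho h.hπ i ⟨g, hg⟩) ^ k) x = x → (rho h.hπ i ⟨g, hg⟩) ^ k = 1) :
    RegP g (fun x => π x = i) := by
  refine ⟨x, x.2, fun k hk y hy => ?_⟩
  have hval : ∀ z : {x : X // π x = i}, (((rho h.hπ i ⟨g, hg⟩) ^ k) z : X) = g ^ k • (z : X) := by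
    intro z
    rw [← map_zpow]
    rfl
  have h1 := hx k (Subtype.ext (by rw [hval]; exact hk))
  have h2 := hval ⟨y, hy⟩
  rw [h1] at h2
  exact h2.symm

end Crd

end Cfsg.Agent.H660.RR
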