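import Cfsg.Agent.H660.RR.Prod

/-!
# S3509: Cartesian decompositions (helper660)

* `Dec π ev` : `Ω` is the set of sections of `π : X → I`, equivariantly;
* `Dec.reg` : regular points from regular points on the fibres.
-/

set_option autoImplicit false

namespace Cfsg.Agent.H660.RR

open Subgroup MulAction

/-- `ev` identifies `Ω` with the set of the sections of `π` -/
structure Dec {G Ω I X : Type*} [Group G] [MulAction G Ω] [MulAction G I] [MulAction G X] (π : X → I)
    (ev : Ω → I → X) : Prop where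
  hπ : ∀ (g : G) (x : X), π (g • x) = g • π x
  hev : ∀ (w : Ω) (i : I), π (ev w i) = i
  surj : ∀ s : I → X, (∀ i, π (s i) = i) → ∃ w, ev w = s
  inj : Function.Injective ev
  eq : ∀ (g : G) (w : Ω) (i : I), ev (g • w) (g • i) = g • ev w i

variable {G Ω I X : Type*} [Group G] [MulAction G Ω] [MulAction G I] [MulAction G X] {π : X → I} {ev : Ω → I → X}

/-- **regular points from the fibres** -/
theorem Dec.reg [Finite G] [FaithfulSMul G Ω] (h : Dec (G := G) π ev) (hne : ∀ i, ∃ x y : X, x ≠ y ∧ π x = i ∧ π y = i)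
    (g : G) (hg : ∀ i, ∀ n : ℕ, g ^ n • i = i → RegP (g ^ n) (fun x => π x = i)) :
    ∃ ω : Ω, stabilizer (zpowers g) ω = ⊥ := by
  obtain ⟨s, hs, hk⟩ := regP_sections π h.hπ hne g hg
  obtain ⟨w, hw⟩ := h.surj s hs
  rw [reg_iff]
  refine ⟨w, fun k hkw => ?_⟩
  have h1 : ∀ x : X, g ^ k • x = x := by
    apply hk
    intro i
    rw [← hw, ← h.eq, hkw]
  apply FaithfulSMul.eq_of_smul_eq_smul (α := Ω)
  intro v
  rw [one_smul]
  apply h.inj
  funext i
  have h2 : g ^ k • i = i := by
    obtain ⟨x, y, -, hx, -⟩ := hne i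
    rw [← hx, ← h.hπ, h1]
  have h3 := h.eq (g ^ k) v i
  rw [h2, h1] at h3
  exact h3

end Cfsg.Agent.H660.RR
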