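import Cfsg.Agent.H660.RR.Crd
import Cfsg.Agent.H112.B57.Diag

/-!
# S3509: the diagonal case (helper660)

* `DiagReg` : the statement for one block (helper344);
* `diag_case` : the diagonal case from `DiagReg`.
-/

set_option autoImplicit false

namespace Cfsg.Agent.H660.RR

open Subgroup MulAction Cfsg.Agent.H893 Cfsg.Agent.H893.Fac

/-- one block of diagonal type -/
def DiagReg : Prop :=
  ∀ (L Δ : Type) [Group L] [Finite L] [MulAction L Δ] [FaithfulSMul L Δ] [Finite Δ] [Nonempty Δ]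
    (ι : Type) [Fintype ι] [DecidableEq ι], 2 ≤ Fintype.card ι → ∀ T : ι → Subgroup L,
    (∀ i, IsSimpleGroup (T i)) → (∀ i, ∃ a b : T i, a * b ≠ b * a) → Function.Injective T →
    (∀ i j, i ≠ j → ∀ a ∈ T i, ∀ b ∈ T j, Commute a b) →
    (∀ (x : L) i, ∃ j, T j = (T i).map (MulAut.conj x).toMonoidHom) →
    (∀ i (x y : Δ), ∃ t ∈ (⨆ j : {j : ι // j ≠ i}, T j.1), t • x = y) →
    (∀ i, ∀ t ∈ (⨆ j : {j : ι // j ≠ i}, T j.1), ∀ x : Δ, t • x = x → t = 1) →
    ∀ g : L, ∃ x : Δ, ∀ k : ℤ, g ^ k • x = x → g ^ k = 1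

section gen

variable {G Ω I X : Type*} [Group G] [MulAction G Ω] [MulAction G I] [MulAction G X]
  {N : Subgroup G} {m : ℕ} {T : Fin m → Subgroup G} {e : N ≃* (∀ i, T i)} {hf : Fac N m T e}
  {c : Fin m → Fin m} {π : X → I} {ev : Ω → I → X} {jj : Fin m → I}

/-- the fibres are nontrivial -/
theorem Crd.hne [FaithfulSMul G Ω] [Nonempty Ω] (C : Crd hf c π ev jj) : ∀ i, ∃ x y : X, x ≠ y ∧ π x = i ∧ π y = i := by
  intro i
  obtain ⟨a, rfl⟩ := C.jsurj i
  by_contra hno
  push Not at hno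
  obtain ⟨s, t, hst⟩ := hf.nonab a
  apply hst
  have h1 : ∀ u v : T a, u = v := by
    intro u v
    apply C.ph_inj (a := a) (l := a) rfl
    apply Subtype.ext
    ext x
    show ((u : G) • (x : X)) = (v : G) • (x : X)
    by_contra h2
    refine hno _ _ h2 ?_ ?_
    · rw [C.dec.hπ, x.2]
      exact C.smul_I ⟨u, hf.le a u.2⟩ _
    · rw [C.dec.hπ, x.2]
      exact C.smul_I ⟨v, hf.le a v.2⟩ _
  exact h1 _ _

/-- the product of the factors of the class except `l`, as a subgroup of the component -/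
theorem Crd.mem_iSup (C : Crd hf c π ev jj) (a : Fin m) (l : {l : Fin m // c l = c a})
    (t : (rho C.dec.hπ (jj a)).range) :
    t ∈ (⨆ j : {j : {l : Fin m // c l = c a} // j ≠ l}, (ph C (jj a) j.1.1).range) ↔
      ∃ n : N, (∀ b, (c b ≠ c a ∨ b = l.1) → e n b = 1) ∧ rN C (jj a) n = t := by
  constructor
  · intro ht
    let W : Subgroup N :=
      { carrier := {n | ∀ b, (c b ≠ c a ∨ b = l.1) → e n b = 1}
        one_mem' := fun b _ => by rw [map_one]; rfl
        mul_mem' := by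
          intro x y hx hy b hb
          rw [map_mul, Pi.mul_apply, hx b hb, hy b hb, one_mul]
        inv_mem' := by
          intro x hx b hb
          rw [map_inv, Pi.inv_apply, hx b hb, inv_one] }
    have h1 : (⨆ j : {j : {l : Fin m // c l = c a} // j ≠ l}, (ph C (jj a) j.1.1).range) ≤ W.map (rN C (jj a)) := by
      apply iSup_le
      rintro ⟨j, hj⟩ _ ⟨s, rfl⟩
      refine ⟨Subgroup.inclusion (hf.le j.1) s, ?_, rfl⟩
      intro b hb
      rw [C.e_incl, Pi.mulSingle_eq_of_ne]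
      rintro rfl
      rcases hb with hb | hb
      · exact hb j.2
      · exact hj (Subtype.ext hb)
    obtain ⟨n, hn, hnt⟩ := h1 ht
    exact ⟨n, hn, hnt⟩
  · rintro ⟨n, hn, rfl⟩
    have h1 : e n ∈ (⨆ j : {j : {l : Fin m // c l = c a} // j ≠ l}, (ph C (jj a) j.1.1).range).comap
        ((rN C (jj a)).comp e.symm.toMonoidHom) := by
      apply Subgroup.pi_mem_of_mulSingle_mem
      intro i
      by_cases hi : c i ≠ c a ∨ i = l.1
      · rw [hn i hi, Pi.mulSingle_one]
        exact one_mem _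
      · push Not at hi
        show rN C (jj a) (e.symm (Pi.mulSingle i (e n i))) ∈
          (⨆ j : {j : {l : Fin m // c l = c a} // j ≠ l}, (ph C (jj a) j.1.1).range)
        have h2 : e.symm (Pi.mulSingle i (e n i)) = Subgroup.inclusion (hf.le i) (e n i) := by
          rw [MulEquiv.symm_apply_eq, C.e_incl]
        rw [h2]
        apply Subgroup.mem_iSup_of_mem (⟨⟨i, hi.1⟩, fun h => hi.2 (congrArg Subtype.val h)⟩ :
          {j : {l : Fin m // c l = c a} // j ≠ l})
        exact ⟨e n i, rfl⟩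
    have h2 : rN C (jj a) (e.symm (e n)) ∈ (⨆ j : {j : {l : Fin m // c l = c a} // j ≠ l}, (ph C (jj a) j.1.1).range) := h1
    rwa [MulEquiv.symm_apply_apply] at h2

/-- the factors commute -/
theorem Crd.commute (C : Crd hf c π ev jj) (i : I) {l l' : Fin m} (hl : l ≠ l') :
    ∀ x ∈ (ph C i l).range, ∀ y ∈ (ph C i l').range, Commute x y := by
  rintro _ ⟨s, rfl⟩ _ ⟨t, rfl⟩
  have h1 : Commute (Subgroup.inclusion (hf.le l) s) (Subgroup.inclusion (hf.le l') t) := by
    show _ * _ = _ * _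
    apply e.injective
    rw [map_mul, map_mul, C.e_incl, C.e_incl]
    exact Pi.mulSingle_commute (f := fun l => T l) hl s t
  exact h1.map (rN C i)

end gen

section diag

variable {G Ω : Type*} [Group G] [MulAction G Ω] {N : Subgroup G} {m : ℕ} {T : Fin m → Subgroup G}
  {e : N ≃* (∀ i, T i)} {c : Fin m → Fin m} {φ : ∀ i, T (c i) ≃* T i} {K : Subgroup G}

theorem diag_mem (hφ : ∀ n : N, (n : G) ∈ K → ∀ i, e n i = φ i (e n (c i)))
    (hsur : ∀ x : ∀ i, T i, ∃ n : N, (n : G) ∈ K ∧ ∀ i, e n (c i) = x (c i)) (n : N) :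
    (n : G) ∈ K ↔ ∀ i, e n i = φ i (e n (c i)) := by
  refine ⟨hφ n, fun h => ?_⟩
  obtain ⟨n', hn', h1⟩ := hsur (e n)
  have h2 : n' = n := by
    apply e.injective
    funext i
    rw [hφ n' hn' i, h1, ← h i]
  exact h2 ▸ hn'

theorem diag_prod (hcc : ∀ i, c (c i) = c i) (hmem : ∀ n : N, (n : G) ∈ K ↔ ∀ i, e n i = φ i (e n (c i))) (n : N) :
    (n : G) ∈ K ↔ ∀ j, ((e.symm (fun i => if c i = j then e n i else 1) : N) : G) ∈ K := by
  constructor
  · intro h j
    rw [hmem] at h ⊢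
    intro i
    rw [MulEquiv.apply_symm_apply]
    by_cases hj : c i = j
    · have hj' : c (c i) = j := by rw [hcc, hj]
      rw [if_pos hj, if_pos hj']
      exact h i
    · have hj' : c (c i) ≠ j := by rw [hcc]; exact hj
      rw [if_neg hj, if_neg hj', map_one]
  · intro h
    rw [hmem]
    intro i
    have h1 := (hmem _).1 (h (c i)) i
    rw [MulEquiv.apply_symm_apply, if_pos rfl, if_pos (hcc i)] at h1
    exact h1

end diag

/-- **the diagonal case** -/
theorem diag_case (hD : DiagReg) {G Ω I X : Type} [Group G] [Finite G] [MulAction G Ω] [FaithfulSMul G Ω]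
    [MulAction G I] [MulAction G X] [Finite X] {N : Subgroup G} {m : ℕ} {T : Fin m → Subgroup G}
    {e : N ≃* (∀ i, T i)} {hf : Fac N m T e} {c : Fin m → Fin m} {φ : ∀ i, T (c i) ≃* T i} {ω : Ω}
    (hc2 : ∀ i, ∃ j, j ≠ i ∧ c j = c i) (hcc : ∀ i, c (c i) = c i)
    (hφ : ∀ n : N, (n : G) ∈ stabilizer G ω → ∀ i, e n i = φ i (e n (c i)))
    (hsur : ∀ x : ∀ i, T i, ∃ n : N, (n : G) ∈ stabilizer G ω ∧ ∀ i, e n (c i) = x (c i))
    {π : X → I} {ev : Ω → I → X} {jj : Fin m → I} (C : Crd hf c π ev jj)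
    (htr : ∀ w v : Ω, ∃ n : N, v = (n : G) • w) (g : G) :
    ∃ ω : Ω, stabilizer (zpowers g) ω = ⊥ := by
  classical
  have hΩ : Nonempty Ω := ⟨ω⟩
  have hI : Finite I := Finite.of_surjective _ C.jsurj
  have hmem := diag_mem hφ hsur
  refine C.dec.reg C.hne g fun i n hin => ?_
  obtain ⟨a, rfl⟩ := C.jsurj i
  -- the base point
  obtain ⟨δ, hδ⟩ : ∃ δ : {x : X // π x = jj a}, (δ : X) = ev ω (jj a) := ⟨⟨ev ω (jj a), C.dec.hev _ _⟩, rfl⟩
  have hKδ : ∀ k : N, (k : G) ∈ stabilizer G ω → rN C (jj a) k • δ = δ := by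
    intro k hk
    apply Subtype.ext
    show (k : G) • (δ : X) = δ
    rw [hδ]
    have h1 := C.dec.eq (k : G) ω (jj a)
    rw [C.smul_I, mem_stabilizer_iff.1 hk] at h1
    exact h1.symm
  have hFtr : ∀ (l : {l : Fin m // c l = c a}) (x : {x : X // π x = jj a}),
      ∃ t ∈ (⨆ j : {j : {l : Fin m // c l = c a} // j ≠ l}, (ph C (jj a) j.1.1).range), t • δ = x := by
    intro l x
    obtain ⟨n, hn⟩ := C.tr htr δ.2 x.2
    obtain ⟨k, hk, hk1⟩ := hsur (Pi.mulSingle (c l.1) ((φ l.1).symm (e n l.1)))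
    have hkl : e k l.1 = e n l.1 := by
      rw [hφ k hk, hk1, Pi.mulSingle_eq_same, MulEquiv.apply_symm_apply]
    refine ⟨rN C (jj a) (e.symm (fun b => if c b = c a then e (n * k⁻¹) b else 1)), ?_, ?_⟩
    · rw [C.mem_iSup]
      refine ⟨_, fun b hb => ?_, rfl⟩
      rw [MulEquiv.apply_symm_apply]
      rcases hb with hb | rfl
      · rw [if_neg hb]
      · rw [if_pos l.2, map_mul, map_inv, Pi.mul_apply, Pi.inv_apply, hkl, mul_inv_cancel]
    · apply Subtype.ext
      show ((e.symm (fun b => if c b = c a then e (n * k⁻¹) b else 1) : N) : G) • (δ : X) = x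
      rw [C.congr (a := a) (n' := n * k⁻¹) (fun b hb => by rw [MulEquiv.apply_symm_apply, if_pos hb]) δ.2]
      have h1 := hKδ k⁻¹ (inv_mem hk)
      have h2 : ((k⁻¹ : N) : G) • (δ : X) = δ := congrArg Subtype.val h1
      rw [Subgroup.coe_mul, mul_smul, h2, hn]
  have hδne : Nonempty {x : X // π x = jj a} := ⟨δ⟩
  have q1 : 2 ≤ Fintype.card {l : Fin m // c l = c a} := by
    obtain ⟨j, hj, hja⟩ := hc2 a
    have h1 : (⟨j, hja⟩ : {l : Fin m // c l = c a}) ≠ ⟨a, rfl⟩ := fun h => hj (congrArg Subtype.val h)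
    exact Fintype.one_lt_card_iff.2 ⟨_, _, h1⟩
  have q2 : Function.Injective (fun l : {l : Fin m // c l = c a} => (ph C (jj a) l.1).range) := by
    intro l l' h
    by_contra hne
    obtain ⟨s, t, hst⟩ := C.nonab l.2
    apply hst
    apply Subtype.ext
    have h1 := C.commute (jj a) (fun h => hne (Subtype.ext h)) s.1 s.2 t.1 (by
      have h2 : (ph C (jj a) l.1).range = (ph C (jj a) l'.1).range := h
      rw [← h2]
      exact t.2)
    exact h1
  have q3 : ∀ (x : (rho C.dec.hπ (jj a)).range) (l : {l : Fin m // c l = c a}), ∃ j : {l : Fin m // c l = c a},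
      (ph C (jj a) j.1).range = ((ph C (jj a) l.1).range).map (MulAut.conj x).toMonoidHom := by
    rintro ⟨_, x0, rfl⟩ l
    refine ⟨⟨hf.perm x0 l.1, ?_⟩, C.conj_range x0⟩
    rw [← C.jiff, ← C.jperm, (C.jiff l.1 a).2 l.2]
    exact x0.2
  have q4 : ∀ (l : {l : Fin m // c l = c a}) (x y : {x : X // π x = jj a}),
      ∃ t ∈ (⨆ j : {j : {l : Fin m // c l = c a} // j ≠ l}, (ph C (jj a) j.1.1).range), t • x = y := by
    intro l x y
    obtain ⟨s, hs, rfl⟩ := hFtr l x
    obtain ⟨t, ht, rfl⟩ := hFtr l y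
    exact ⟨t * s⁻¹, mul_mem ht (inv_mem hs), by rw [mul_smul, inv_smul_smul]⟩
  have q5 : ∀ (l : {l : Fin m // c l = c a}),
      ∀ t ∈ (⨆ j : {j : {l : Fin m // c l = c a} // j ≠ l}, (ph C (jj a) j.1.1).range),
      ∀ x : {x : X // π x = jj a}, t • x = x → t = 1 := by
    intro l t ht x htx
    obtain ⟨s, hs, rfl⟩ := hFtr l x
    have h1 : (s⁻¹ * t * s) • δ = δ := by
      rw [mul_smul, mul_smul, htx, inv_smul_smul]
    have h2 := mul_mem (mul_mem (inv_mem hs) ht) hs
    obtain ⟨n1, hn1, hn2⟩ := (C.mem_iSup a l _).1 h2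
    rw [← hn2] at h1
    have h3 : (n1 : G) • ev ω (jj a) = ev ω (jj a) := by
      rw [← hδ]
      exact congrArg Subtype.val h1
    have h4 := C.dec.eq (n1 : G) ω (jj a)
    rw [C.smul_I, h3] at h4
    obtain ⟨n', hn', h5⟩ := (C.eviff a ω ((n1 : G) • ω)).1 h4.symm
    have h6 : ((n'⁻¹ * n1 : N) : G) ∈ stabilizer G ω := by
      show ((n' : G)⁻¹ * (n1 : G)) • ω = ω
      rw [mul_smul, h5, inv_smul_smul]
    rw [hmem] at h6
    have h7 : ∀ b, c b = c a → e (n'⁻¹ * n1) b = e n1 b := by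
      intro b hb
      rw [map_mul, map_inv, Pi.mul_apply, Pi.inv_apply, hn' b hb, inv_one, one_mul]
    have h8 : ∀ b, c b = c a → e n1 b = φ b (e n1 (c b)) := by
      intro b hb
      rw [← h7 b hb, h6 b, h7 (c b) (by rw [hcc, hb])]
    have h9 : e n1 (c l.1) = 1 := by
      have h10 := h8 l.1 l.2
      rw [hn1 l.1 (Or.inr rfl)] at h10
      exact (map_eq_one_iff _ (φ l.1).injective).1 h10.symm
    have h10 : ∀ b, b = c l.1 → e n1 b = 1 := by
      rintro _ rfl
      exact h9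
    have h11 : n1 = 1 := by
      apply e.injective
      rw [map_one]
      funext b
      by_cases hb : c b = c a
      · rw [h8 b hb, h10 (c b) (by rw [hb, l.2]), map_one]
        rfl
      · exact hn1 b (Or.inl hb)
    rw [h11, map_one] at hn2
    have h12 : t = s * (s⁻¹ * t * s) * s⁻¹ := by group
    rw [h12, ← hn2]
    group
  obtain ⟨x, hx⟩ := hD (rho C.dec.hπ (jj a)).range {x : X // π x = jj a} {l : Fin m // c l = c a} q1
    (fun l => (ph C (jj a) l.1).range) (fun l => C.simple l.2) (fun l => C.nonab l.2) q2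
    (fun l l' hl => C.commute (jj a) (fun h => hl (Subtype.ext h))) q3 q4 q5
    ⟨rho C.dec.hπ (jj a) ⟨g ^ n, hin⟩, _, rfl⟩
  exact Crd.regP_of C.dec hin x fun k hk => congrArg Subtype.val (hx k (by exact hk))

end Cfsg.Agent.H660.RR
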