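import Cfsg.Agent.H660.RR.Coord
import Cfsg.Agent.H344.RR.Diag

/-!
# S3509: the reduction to almost simple groups (helper660)

* `diagReg` (helper344), `exDec`;
* `s3509_of` : **`S3509` from `RC` for the simple groups which are not alternating and the alternating row.**
-/

set_option autoImplicit false

namespace Cfsg.Agent.H660.RR

open Subgroup MulAction

theorem diagReg : DiagReg := by
  intro L Δ _ _ _ _ _ _ ι _ _ hι T hs hna hinj hcomm hconj htr hreg g
  exact H344.RR.diag_reg hι T hs hna hinj hcomm hconj htr hreg g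

/-- **`S3509` from the almost simple groups** -/
theorem s3509_of (hRC : ∀ (S : Type) [Group S] [Finite S], H873.RG.NSA S → H106.RC.RC S)
    (hAlt : ASRow (fun T _ => ∃ n, 5 ≤ n ∧ Nonempty (T ≃* alternatingGroup (Fin n))))
    {G : Type*} [Group G] [Finite G] {Ω : Type*} [Fintype Ω] [MulAction G Ω] [FaithfulSMul G Ω]
    (hprim : MulAction.IsPreprimitive G Ω) (g : G) :
    (∃ ω : Ω, MulAction.stabilizer (Subgroup.zpowers g) ω = ⊥) ∨
    (∃ (m k r : ℕ), 5 ≤ m ∧ 1 ≤ k ∧ 1 ≤ r ∧
      ∃ e : Ω ≃ (Fin r → {s : Finset (Fin m) // s.card = k}),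
        (∀ x : G, ∃ (π : Equiv.Perm (Fin r)) (τ : Fin r → Equiv.Perm (Fin m)),
            ∀ (ω : Ω) (i : Fin r), ((e (x • ω) i : {s : Finset (Fin m) // s.card = k}) : Finset (Fin m)) =
              (((e ω) (π.symm i) : {s : Finset (Fin m) // s.card = k}) : Finset (Fin m)).map (τ i).toEmbedding) ∧
        (∀ τ : Fin r → Equiv.Perm (Fin m), (∀ i, τ i ∈ alternatingGroup (Fin m)) →
            ∃ x : G, ∀ (ω : Ω) (i : Fin r), ((e (x • ω) i : {s : Finset (Fin m) // s.card = k}) : Finset (Fin m)) =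
              (((e ω) i : {s : Finset (Fin m) // s.card = k}) : Finset (Fin m)).map (τ i).toEmbedding)) :=
  main diagReg exDec (asrow_all hRC hAlt) hprim g

end Cfsg.Agent.H660.RR
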