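import Cfsg.Agent.H660.RR.ProdCase
import Cfsg.Agent.H660.RR.DiagCase
import Cfsg.Agent.H384.RR.Affine
import Cfsg.Agent.H873.RG.Defs
import Cfsg.Agent.H106.RC.Red

/-!
# S3509: assembly (helper660)

* `ExDec` : the statement of the coordinates (helper716);
* `main_zero` : the theorem for groups and sets in `Type`;
* `asrow_all` : `ASRow` from `RC` for the groups which are not alternating and the alternating row;
* `main` : the theorem in all universes.
-/

set_option autoImplicit false

namespace Cfsg.Agent.H660.RR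

open Subgroup MulAction Cfsg.Agent.H893 Cfsg.Agent.H893.Fac

/-- the coordinates for a partition of the factors -/
def ExDec : Prop :=
  ∀ {G Ω : Type} [Group G] [Finite G] [MulAction G Ω] [Finite Ω] {N : Subgroup G} [N.Normal] {m : ℕ}
    {T : Fin m → Subgroup G} {e : N ≃* (∀ i, T i)} (hf : Fac N m T e) {ω : Ω}, (∀ w : Ω, ∃ n : N, w = (n : G) • ω) →
    ∀ c : Fin m → Fin m, (∀ i, c (c i) = c i) → (∀ (x : G) i j, c i = c j → c (hf.perm x i) = c (hf.perm x j)) →
    (∀ n : N, (n : G) • ω = ω ↔ ∀ j, ((e.symm (fun i => if c i = j then e n i else 1) : N) : G) • ω = ω) →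
    ∃ (I X : Type) (_ : MulAction G I) (_ : MulAction G X) (_ : Finite X) (π : X → I) (ev : Ω → I → X) (jj : Fin m → I),
      Crd hf c π ev jj

/-- `ASRow` from `RC` and the alternating row -/
theorem asrow_all (h1 : ∀ (S : Type) [Group S] [Finite S], H873.RG.NSA S → H106.RC.RC S)
    (h2 : ASRow (fun T _ => ∃ n, 5 ≤ n ∧ Nonempty (T ≃* alternatingGroup (Fin n)))) : ASRow (fun _ _ => True) := by
  intro G Ω _ _ _ _ _ hp T _ hT hna hC _ g
  by_cases ha : ∃ n, 5 ≤ n ∧ Nonempty (T ≃* alternatingGroup (Fin n))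
  · exact h2 G Ω hp T hT hna hC ha g
  · left
    by_contra hno
    push Not at hno
    refine H106.RC.no_rc_of_noreg T hT hC g hno (h1 T ⟨hT, ?_, ha⟩)
    intro h
    obtain ⟨a, b, hab⟩ := hna
    exact hab (h.is_comm.comm a b)

/-- the empty set -/
theorem palt_empty {G Ω : Type*} [Group G] [MulAction G Ω] [IsEmpty Ω] : PAlt G Ω := by
  have h1 : IsEmpty {s : Finset (Fin 5) // s.card = 6} := by
    refine ⟨fun s => ?_⟩
    have h2 := Finset.card_le_univ s.1
    rw [s.2, Fintype.card_fin] at h2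
    omega
  refine ⟨5, 6, 1, le_rfl, by norm_num, le_rfl, Equiv.equivOfIsEmpty _ _, fun x => ⟨1, fun _ => 1, fun ω => ?_⟩,
    fun τ _ => ⟨1, fun ω => ?_⟩⟩
  · exact isEmptyElim ω
  · exact isEmptyElim ω

theorem main_zero (hD : DiagReg) (hE : ExDec) (hAS : ASRow (fun _ _ => True)) {G Ω : Type} [Group G] [Finite G]
    [MulAction G Ω] [FaithfulSMul G Ω] [Finite Ω] (hp : IsPreprimitive G Ω) (g : G) :
    (∃ ω : Ω, stabilizer (zpowers g) ω = ⊥) ∨ PAlt G Ω := by
  rcases isEmpty_or_nonempty Ω with he | hne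
  · exact Or.inr palt_empty
  rcases subsingleton_or_nontrivial G with hs | hnt
  · left
    obtain ⟨ω⟩ := hne
    exact ⟨ω, Subsingleton.elim _ _⟩
  obtain ⟨N, hNn, hN, hmin⟩ := exists_min_normal' (G := G)
  by_cases hab : ∀ x ∈ N, ∀ y ∈ N, Commute x y
  · exact Or.inl (H384.RR.affine hp N hN hab g)
  obtain ⟨htr, hKN, hNK⟩ := prim_normal hp N hN
  obtain ⟨ω⟩ := hne
  have hntΩ : Nontrivial Ω := by
    by_contra h
    rw [not_nontrivial_iff_subsingleton] at h
    exact hNK ω fun x _ => Subsingleton.elim _ _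
  obtain ⟨m, T, e, hf⟩ := exists_fac N hmin hab
  have htr' : ∀ w v : Ω, ∃ n : N, v = (n : G) • w := by
    intro w v
    obtain ⟨n, hn⟩ := htr.exists_smul_eq w v
    exact ⟨n, hn.symm⟩
  rcases H112.B57.scott' hf (stabilizer G ω) (hKN ω) (hNK ω)
    (fun X hX hKX hinv => prim_max_inv hp N ω X hX hKX hinv) with h | ⟨c, φ, hcc, hc2, hcK, hφ, hsur⟩
  · -- product case
    obtain ⟨I, X, i1, i2, i3, π, ev, jj, C⟩ := hE hf (ω := ω) (htr' ω) id (fun _ => rfl)
      (fun x i j hij => by
        have hij' : i = j := hij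
        rw [hij']) (fun n => by
        have h1 := h n
        simp only [mem_stabilizer_iff] at h1
        rw [h1]
        refine forall_congr' fun j => ?_
        have h2 : (fun i => if id i = j then e n i else 1) = Pi.mulSingle j (e n j) := by
          funext i
          show (if i = j then e n i else 1) = _
          by_cases hij : i = j
          · subst hij
            rw [if_pos rfl, Pi.mulSingle_eq_same]
          · rw [if_neg hij, Pi.mulSingle_eq_of_ne hij]
        rw [h2, hf.single])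
    have hΩ : Nonempty Ω := ⟨ω⟩
    exact product_case C hp htr' C.hne hAS g
  · -- diagonal case
    left
    have hmem := diag_mem hφ hsur
    obtain ⟨I, X, i1, i2, i3, π, ev, jj, C⟩ := hE hf (ω := ω) (htr' ω) c hcc
      (fun x i j hij => by
        obtain ⟨n, hn, hxn⟩ := hKN ω x
        have h1 := hcK _ hxn i j hij
        have h2 : hf.perm n = 1 := hf.le_ker_perm hn
        rwa [map_mul, h2, mul_one] at h1) (fun n => diag_prod hcc hmem n)
    exact diag_case hD hc2 hcc hφ hsur C htr' g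

/-- **the theorem in all universes** -/
theorem main (hD : DiagReg) (hE : ExDec) (hAS : ASRow (fun _ _ => True)) {G : Type*} [Group G] [Finite G] {Ω : Type*}
    [Fintype Ω] [MulAction G Ω] [FaithfulSMul G Ω] (hprim : IsPreprimitive G Ω) (g : G) :
    (∃ ω : Ω, stabilizer (zpowers g) ω = ⊥) ∨ PAlt G Ω := by
  classical
  let ε : Ω ≃ Fin (Fintype.card Ω) := Fintype.equivFin Ω
  let Θ : G →* Equiv.Perm (Fin (Fintype.card Ω)) := ε.permCongrHom.toMonoidHom.comp (MulAction.toPermHom G Ω)
  have hΘ : ∀ (x : G) (w : Ω), Θ x (ε w) = ε (x • w) := by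
    intro x w
    show ε (x • ε.symm (ε w)) = _
    rw [Equiv.symm_apply_apply]
  let f : Ω →ₑ[(Θ.rangeRestrict : G → Θ.range)] Fin (Fintype.card Ω) := ⟨ε, fun x w => (hΘ x w).symm⟩
  have hprim0 : IsPreprimitive Θ.range (Fin (Fintype.card Ω)) :=
    IsPreprimitive.of_surjective (f := f) ε.surjective
  have hinj : ∀ x : G, Θ x = 1 → x = 1 := by
    intro x hx
    apply FaithfulSMul.eq_of_smul_eq_smul (α := Ω)
    intro w
    apply ε.injective
    rw [← hΘ, hx, one_smul]
    rfl
  rcases main_zero hD hE hAS hprim0 (Θ.rangeRestrict g) with h | ⟨m, k, r, hm, hk, hr, e, h1, h2⟩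
  · left
    rw [reg_iff] at h ⊢
    obtain ⟨w, hw⟩ := h
    refine ⟨ε.symm w, fun k hk => ?_⟩
    apply hinj
    have h3 := hw k (by
      rw [← map_zpow]
      show Θ (g ^ k) w = w
      have h4 := hΘ (g ^ k) (ε.symm w)
      rw [hk, Equiv.apply_symm_apply] at h4
      exact h4)
    rw [← map_zpow] at h3
    exact congrArg Subtype.val h3
  · right
    refine ⟨m, k, r, hm, hk, hr, ε.trans e, fun x => ?_, fun τ hτ => ?_⟩
    · obtain ⟨π, τ, h3⟩ := h1 (Θ.rangeRestrict x)
      refine ⟨π, τ, fun w i => ?_⟩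
      have h4 := h3 (ε w) i
      have h5 : Θ.rangeRestrict x • ε w = ε (x • w) := hΘ x w
      rw [h5] at h4
      exact h4
    · obtain ⟨⟨_, x, rfl⟩, h3⟩ := h2 τ hτ
      refine ⟨x, fun w i => ?_⟩
      have h4 := h3 (ε w) i
      have h5 : (⟨Θ x, x, rfl⟩ : Θ.range) • ε w = ε (x • w) := hΘ x w
      rw [h5] at h4
      exact h4

end Cfsg.Agent.H660.RR
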