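import Cfsg.Agent.H660.RR.Defs
import Cfsg.Agent.H106.RC.Cover
import Cfsg.Agent.SmallSimple.Embed

/-!
# S3509: a regular simple normal subgroup (helper660)

* `prime_lt` : `a`, `x` commuting nontrivial automorphisms of the simple group `S`, `x ^ p = 1`: then
  `p + 1 ≤ |S : C_S(a)|`;
* `card_fix` : the number of fixed points of an element normalizing a regular subgroup;
* `hol_reg` : `T` simple, nonabelian, normal in `L` and regular on `Δ`: every element of `L` has a regular point.
-/

set_option autoImplicit false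

namespace Cfsg.Agent.H660.RR

open Subgroup MulAction
open Cfsg.Agent.H106.RC (Cov PF RegPt exists_cover)

section aut

variable {S : Type*} [Group S]

/-- the fixed points of an automorphism -/
def fixS (a : MulAut S) : Subgroup S where
  carrier := {s | a s = s}
  one_mem' := map_one a
  mul_mem' := by
    intro x y hx hy
    show a (x * y) = x * y
    rw [map_mul, show a x = x from hx, show a y = y from hy]
  inv_mem' := by
    intro x hx
    show a x⁻¹ = x⁻¹
    rw [map_inv, show a x = x from hx]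

theorem mem_fixS {a : MulAut S} {s : S} : s ∈ fixS a ↔ a s = s := Iff.rfl

theorem fixS_ne_top {a : MulAut S} (ha : a ≠ 1) : fixS a ≠ ⊤ := by
  intro h
  apply ha
  ext s
  have h1 : s ∈ fixS a := by rw [h]; exact mem_top s
  exact h1

/-- a simple group is generated by the `s⁻¹ x(s)` -/
theorem closure_comm_eq_top [IsSimpleGroup S] {x : MulAut S} (hx : x ≠ 1) :
    closure (Set.range fun s : S => s⁻¹ * x s) = ⊤ := by
  set K := closure (Set.range fun s : S => s⁻¹ * x s) with hK
  have hmem : ∀ s : S, s⁻¹ * x s ∈ K := fun s => subset_closure ⟨s, rfl⟩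
  -- `K` is normal: `t⁻¹ (s⁻¹ x(s)) t = ((s t)⁻¹ x(s t)) (t⁻¹ x(t))⁻¹`
  have h1 : ∀ t : S, ∀ s : S, t⁻¹ * (s⁻¹ * x s) * t ∈ K := by
    intro t s
    have e : t⁻¹ * (s⁻¹ * x s) * t = ((s * t)⁻¹ * x (s * t)) * (t⁻¹ * x t)⁻¹ := by
      rw [map_mul]; group
    rw [e]
    exact mul_mem (hmem _) (inv_mem (hmem _))
  have h2 : ∀ t : S, K ≤ K.comap (MulAut.conj t⁻¹).toMonoidHom := by
    intro t
    rw [hK, closure_le]
    rintro _ ⟨s, rfl⟩
    show t⁻¹ * (s⁻¹ * x s) * t⁻¹⁻¹ ∈ K
    rw [inv_inv]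
    exact h1 t s
  have hn : K.Normal := ⟨fun k hk t => by
    have h3 := h2 t⁻¹ hk
    have h4 : t⁻¹⁻¹ * k * t⁻¹⁻¹⁻¹ ∈ K := h3
    rwa [inv_inv] at h4⟩
  rcases hn.eq_bot_or_eq_top with h | h
  · exfalso
    apply hx
    ext s
    have h3 := hmem s
    rw [h, mem_bot, inv_mul_eq_one] at h3
    exact h3.symm
  · exact h

/-- **The class lemma.** -/
theorem prime_lt [Finite S] [IsSimpleGroup S] {a x : MulAut S} (hax : Commute a x) (ha : a ≠ 1) (hx : x ≠ 1) {p : ℕ}
    (hp : p.Prime) (hxp : x ^ p = 1) : p + 1 ≤ (fixS a).index := by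
  have hxC : ∀ s, s ∈ fixS a → x s ∈ fixS a := by
    intro s hs
    have h1 := DFunLike.congr_fun hax.eq s
    rw [MulAut.mul_apply, MulAut.mul_apply, mem_fixS.1 hs] at h1
    exact h1
  have hxC' : ∀ s, s ∈ fixS a → x⁻¹ s ∈ fixS a := by
    intro s hs
    have h1 := DFunLike.congr_fun (hax.inv_right).eq s
    rw [MulAut.mul_apply, MulAut.mul_apply, mem_fixS.1 hs] at h1
    exact h1
  have hrel : ∀ (y : MulAut S), (∀ s, s ∈ fixS a → y s ∈ fixS a) → ∀ s t : S,
      QuotientGroup.leftRel (fixS a) s t → QuotientGroup.leftRel (fixS a) (y s) (y t) := by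
    intro y hy s t h
    rw [QuotientGroup.leftRel_apply] at h ⊢
    rw [← map_inv, ← map_mul]
    exact hy _ h
  let f : Equiv.Perm (S ⧸ fixS a) :=
    { toFun := Quotient.map' x (hrel x hxC)
      invFun := Quotient.map' (x⁻¹ : MulAut S) (hrel x⁻¹ hxC')
      left_inv := fun q => by
        induction q using Quotient.inductionOn' with
        | h s => rw [Quotient.map'_mk'', Quotient.map'_mk'', MulAut.inv_apply_self]
      right_inv := fun q => by
        induction q using Quotient.inductionOn' with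
        | h s => rw [Quotient.map'_mk'', Quotient.map'_mk'', MulAut.apply_inv_self] }
  have hf : ∀ s : S, f (QuotientGroup.mk s) = QuotientGroup.mk (x s) := fun s => rfl
  have hfk : ∀ (k : ℕ) (s : S), (f ^ k) (QuotientGroup.mk s) = QuotientGroup.mk ((x ^ k) s) := by
    intro k
    induction k with
    | zero => intro s; rfl
    | succ k ih =>
      intro s
      rw [pow_succ', Equiv.Perm.mul_apply, ih, hf, pow_succ', MulAut.mul_apply]
  have hfp : f ^ p = 1 := by
    ext q
    induction q using Quotient.inductionOn' with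
    | h s =>
      have h1 := hfk p s
      rw [hxp] at h1
      exact h1
  -- a moved point
  obtain ⟨s, hs⟩ : ∃ s : S, f (QuotientGroup.mk s) ≠ (QuotientGroup.mk s : S ⧸ fixS a) := by
    by_contra hcon
    push Not at hcon
    apply fixS_ne_top ha
    rw [eq_top_iff, ← closure_comm_eq_top hx, closure_le]
    rintro _ ⟨s, rfl⟩
    have h1 := hcon s
    rw [hf, eq_comm, QuotientGroup.eq] at h1
    exact h1
  set q : S ⧸ fixS a := QuotientGroup.mk s with hq
  have hbase : ∀ k : ℤ, (f ^ k) (QuotientGroup.mk (1 : S)) = (QuotientGroup.mk (1 : S) : S ⧸ fixS a) := by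
    have h1 : f ∈ stabilizer (Equiv.Perm (S ⧸ fixS a)) (QuotientGroup.mk (1 : S) : S ⧸ fixS a) := by
      show f (QuotientGroup.mk (1 : S)) = _
      rw [hf, map_one]
    exact fun k => zpow_mem h1 k
  have horb : (orbit (zpowers f) q).ncard = p := by
    rw [← index_stabilizer]
    have h1 : (stabilizer (zpowers f) q).index ∣ Nat.card (zpowers f) := index_dvd_card _
    rw [Nat.card_zpowers] at h1
    have h2 : orderOf f ∣ p := orderOf_dvd_of_pow_eq_one hfp
    rcases (Nat.dvd_prime hp).1 (h1.trans h2) with h3 | h3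
    · exfalso
      rw [index_eq_one] at h3
      apply hs
      have h4 : (⟨f, mem_zpowers f⟩ : zpowers f) ∈ stabilizer (zpowers f) q := by rw [h3]; exact mem_top _
      exact h4
    · exact h3
  have hnot : (QuotientGroup.mk (1 : S) : S ⧸ fixS a) ∉ orbit (zpowers f) q := by
    rintro ⟨⟨_, k, rfl⟩, hk⟩
    have hk' : (f ^ k) q = QuotientGroup.mk (1 : S) := hk
    apply hs
    have h1 : q = QuotientGroup.mk (1 : S) := by
      apply (f ^ k).injective
      rw [hk', hbase]
    show f q = q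
    rw [h1]
    exact hbase 1
  have hfin : (orbit (zpowers f) q).Finite := Set.toFinite _
  have h1 := Set.ncard_insert_of_notMem hnot hfin
  rw [horb] at h1
  have h2 := Set.ncard_le_card (insert (QuotientGroup.mk (1 : S) : S ⧸ fixS a) (orbit (zpowers f) q))
  rw [h1] at h2
  exact h2

end aut

section fix

variable {L Δ : Type*} [Group L] [MulAction L Δ]

/-- the number of fixed points of `x` -/
noncomputable def nfix (Δ : Type*) [MulAction L Δ] (x : L) : ℕ := Nat.card {δ : Δ // x • δ = δ}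

/-- the union bound -/
theorem union_bound [Finite Δ] {ι : Type*} [Fintype ι] {x : ι → L} (h : Cov Δ x) :
    Nat.card Δ ≤ ∑ i, nfix Δ (x i) := by
  classical
  have := Fintype.ofFinite Δ
  choose f hf using h
  have h1 : Nat.card Δ ≤ Nat.card (Σ i, {δ : Δ // x i • δ = δ}) :=
    Nat.card_le_card_of_injective (fun δ => ⟨f δ, δ, hf δ⟩) (by
      intro a b hab
      have h2 := congrArg (fun z : (Σ i, {δ : Δ // x i • δ = δ}) => (z.2 : Δ)) hab
      exact h2)
  rwa [Nat.card_sigma] at h1

/-- **the fixed points of an element normalizing a regular subgroup** -/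
theorem card_fix {M : Subgroup L} (htr : ∀ x y : Δ, ∃ t ∈ M, t • x = y)
    (hreg : ∀ t ∈ M, ∀ x : Δ, t • x = x → t = 1) {x : L} (hx : ∀ t ∈ M, x * t * x⁻¹ ∈ M) {δ : Δ} (hδ : x • δ = δ) :
    nfix Δ x = Nat.card {t : M // x * t * x⁻¹ = t} := by
  unfold nfix
  symm
  refine Nat.card_congr (Equiv.ofBijective (fun t => ⟨(t.1 : L) • δ, ?_⟩) ⟨?_, ?_⟩)
  · have h1 : x • (t.1 : L) • δ = (x * (t.1 : L) * x⁻¹) • x • δ := by
      rw [smul_smul, smul_smul]; congr 1; group
    rw [h1, hδ, t.2]
  · intro s t h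
    have h1 : (s.1 : L) • δ = (t.1 : L) • δ := congrArg Subtype.val h
    have h2 : ((t.1 : L)⁻¹ * (s.1 : L)) • δ = δ := by rw [mul_smul, h1, inv_smul_smul]
    have h3 := hreg _ (mul_mem (inv_mem t.1.2) s.1.2) δ h2
    rw [inv_mul_eq_one] at h3
    exact Subtype.ext (Subtype.ext h3.symm)
  · rintro ⟨y, hy⟩
    obtain ⟨t, ht, rfl⟩ := htr δ y
    have h1 : x * t * x⁻¹ = t := by
      have h2 : (t⁻¹ * (x * t * x⁻¹)) • δ = δ := by
        rw [mul_smul, inv_smul_eq_iff]
        calc (x * t * x⁻¹) • δ = (x * t * x⁻¹) • x • δ := by rw [hδ]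
          _ = x • t • δ := by rw [smul_smul, smul_smul]; congr 1; group
          _ = t • δ := hy
      have h3 := hreg _ (mul_mem (inv_mem ht) (hx t ht)) δ h2
      rw [inv_mul_eq_one] at h3
      exact h3.symm
    exact ⟨⟨⟨t, ht⟩, h1⟩, rfl⟩

end fix

section hol

/-- distinct primes below `N` -/
theorem card_primes_lt {ι : Type*} [Fintype ι] {r : ι → ℕ} (hr : ∀ i, (r i).Prime) (hinj : Function.Injective r)
    {N : ℕ} (h : ∀ i, r i + 1 ≤ N) : Fintype.card ι + 2 ≤ N ∨ IsEmpty ι := by
  classical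
  by_cases he : IsEmpty ι
  · exact Or.inr he
  · left
    rw [not_isEmpty_iff] at he
    obtain ⟨i0⟩ := he
    have hsub : Finset.univ.image r ⊆ ((Finset.range N).erase 0).erase 1 := by
      intro y hy
      obtain ⟨i, -, rfl⟩ := Finset.mem_image.1 hy
      rw [Finset.mem_erase, Finset.mem_erase, Finset.mem_range]
      exact ⟨(hr i).one_lt.ne', (hr i).pos.ne', h i⟩
    have h1 := Finset.card_le_card hsub
    have hN : 2 < N := lt_of_lt_of_le (Nat.lt_succ_of_le (hr i0).two_le) (h i0)
    rw [Finset.card_image_of_injective _ hinj, Finset.card_univ, Finset.card_erase_of_mem, Finset.card_erase_of_mem,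
      Finset.card_range] at h1
    · omega
    · exact Finset.mem_range.2 (by omega)
    · rw [Finset.mem_erase, Finset.mem_range]
      exact ⟨one_ne_zero, by omega⟩

/-- **`T` simple and regular.** -/
theorem hol_reg {L Δ : Type*} [Group L] [Finite L] [MulAction L Δ] [FaithfulSMul L Δ] [Finite Δ] [Nonempty Δ]
    (T : Subgroup L) [T.Normal] [IsSimpleGroup T]
    (htr : ∀ x y : Δ, ∃ t ∈ T, t • x = y) (hreg : ∀ t ∈ T, ∀ x : Δ, t • x = x → t = 1) (g : L) :
    ∃ x : Δ, ∀ k : ℤ, g ^ k • x = x → g ^ k = 1 := by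
  classical
  by_contra hno
  push Not at hno
  obtain ⟨ι, hι, x, r, hPF, hcov, -, hmin⟩ := exists_cover (Ω := Δ) (g := g) (by
    intro ω h
    obtain ⟨k, hk, hk1⟩ := hno ω
    exact hk1 (h (g ^ k) ⟨k, rfl⟩ hk))
  have hfι := Fintype.ofFinite ι
  have hι0 : Nonempty ι := by
    obtain ⟨i, -⟩ := hcov (Classical.arbitrary Δ)
    exact ⟨i⟩
  -- the automorphisms
  obtain ⟨α, hα⟩ : ∃ α : L →* MulAut T, ∀ (y : L) (t : T), ((α y t : T) : L) = y * t * y⁻¹ :=
    ⟨MulAut.conjNormal, fun y t => rfl⟩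
  have hcardΔ : Nat.card Δ = Nat.card T := by
    symm
    obtain ⟨δ⟩ := (inferInstance : Nonempty Δ)
    refine Nat.card_congr (Equiv.ofBijective (fun t : T => (t : L) • δ) ⟨?_, ?_⟩)
    · intro s t h
      have h2 : ((t : L)⁻¹ * (s : L)) • δ = δ := by
        rw [mul_smul, show (s : L) • δ = (t : L) • δ from h, inv_smul_smul]
      have h3 := hreg _ (mul_mem (inv_mem t.2) s.2) δ h2
      rw [inv_mul_eq_one] at h3
      exact Subtype.ext h3.symm
    · intro y
      obtain ⟨t, ht, rfl⟩ := htr δ y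
      exact ⟨⟨t, ht⟩, rfl⟩
  have hfixd : ∀ i, ∃ δ : Δ, x i • δ = δ := fun i => by
    obtain ⟨δ, h, -⟩ := hmin i
    exact ⟨δ, h⟩
  have hne : ∀ i, α (x i) ≠ 1 := by
    intro i h
    obtain ⟨δ, hδ⟩ := hfixd i
    apply hPF.ne i
    apply FaithfulSMul.eq_of_smul_eq_smul (α := Δ)
    intro y
    obtain ⟨t, ht, rfl⟩ := htr δ y
    have h1 : x i * t * (x i)⁻¹ = t := by
      rw [← hα (x i) ⟨t, ht⟩, h]
      rfl
    rw [one_smul]
    calc x i • t • δ = (x i * t * (x i)⁻¹) • x i • δ := by rw [smul_smul, smul_smul]; congr 1; group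
      _ = t • δ := by rw [h1, hδ]
  have hnfix : ∀ i, nfix Δ (x i) * (fixS (α (x i))).index = Nat.card T := by
    intro i
    obtain ⟨δ, hδ⟩ := hfixd i
    rw [card_fix (M := T) htr hreg (x := x i) (fun t ht => (inferInstance : T.Normal).conj_mem t ht (x i)) hδ]
    rw [← (fixS (α (x i))).card_mul_index]
    congr 1
    refine Nat.card_congr (Equiv.subtypeEquivRight fun t => ?_)
    rw [mem_fixS, ← hα]
    exact Subtype.ext_iff.symm
  -- the smallest index
  obtain ⟨i0, -, hi0⟩ := Finset.exists_min_image Finset.univ (fun i => (fixS (α (x i))).index) ⟨hι0.some, Finset.mem_univ _⟩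
  set N := (fixS (α (x i0))).index with hN
  have hNpos : 0 < N := Nat.pos_of_ne_zero index_ne_zero_of_finite
  have hb : ∀ i, nfix Δ (x i) * N ≤ Nat.card T := by
    intro i
    rw [← hnfix i]
    exact Nat.mul_le_mul_left _ (hi0 i (Finset.mem_univ i))
  have hp : ∀ i, r i + 1 ≤ N := fun i =>
    prime_lt ((show Commute (x i0) (x i) from hPF.comm i0 i).map α) (hne i0) (hne i) (hPF.prime i) (by rw [← map_pow, hPF.pow, map_one])
  rcases card_primes_lt hPF.prime hPF.inj hp with h | h
  · have h1 := union_bound hcov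
    have h2 : Nat.card Δ * N ≤ Fintype.card ι * Nat.card T := by
      calc Nat.card Δ * N ≤ (∑ i, nfix Δ (x i)) * N := Nat.mul_le_mul_right _ h1
        _ = ∑ i, nfix Δ (x i) * N := Finset.sum_mul _ _ _
        _ ≤ ∑ _i : ι, Nat.card T := Finset.sum_le_sum fun i _ => hb i
        _ = Fintype.card ι * Nat.card T := by rw [Finset.sum_const, Finset.card_univ, smul_eq_mul]
    rw [hcardΔ, mul_comm] at h2
    have h3 := Nat.le_of_mul_le_mul_right h2 Nat.card_pos
    omega
  · exact h.false i0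

end hol

end Cfsg.Agent.H660.RR
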