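import Cfsg.Agent.H660.RR.Defs

/-!
# S3509: regular points in product action (helper660)

* `regP_sections` : `X → I` equivariant, the powers of `g` fixing `i` have regular points on the fibre over `i`; then `g`
  has a regular point on the set of all sections.
-/

set_option autoImplicit false

namespace Cfsg.Agent.H660.RR

open Subgroup MulAction

section one

variable {G X : Type*} [Group G] [MulAction G X]

/-- if `g` acts trivially on `P` then so do its powers -/
theorem zpow_trivial {g : G} {P : X → Prop} (h : ∀ y, P y → g • y = y) (k : ℤ) : ∀ y, P y → g ^ k • y = y := by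
  intro y hy
  have h1 : g ∈ stabilizer G y := h y hy
  exact zpow_mem h1 k

end one

/-- **The product lemma.** -/
theorem regP_sections {G I X : Type*} [Group G] [Finite G] [MulAction G I] [MulAction G X] (π : X → I)
    (hπ : ∀ (g : G) (x : X), π (g • x) = g • π x) (hne : ∀ i, ∃ x y : X, x ≠ y ∧ π x = i ∧ π y = i) (g : G)
    (h : ∀ i, ∀ n : ℕ, g ^ n • i = i → RegP (g ^ n) (fun x => π x = i)) :
    ∃ s : I → X, (∀ i, π (s i) = i) ∧ ∀ k : ℤ, (∀ i, s (g ^ k • i) = g ^ k • s i) → ∀ x : X, g ^ k • x = x := by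
  classical
  -- representatives
  obtain ⟨r, hr1, hr2⟩ : ∃ r : I → I, (∀ i, ∃ k : ℤ, g ^ k • r i = i) ∧ ∀ (k : ℤ) i, r (g ^ k • i) = r i := by
    refine ⟨fun i => (Quotient.mk (orbitRel (zpowers g) I) i).out, fun i => ?_, fun k i => ?_⟩
    · have h1 : (Quotient.mk (orbitRel (zpowers g) I) i).out ∈ orbit (zpowers g) i := by
        rw [← orbitRel_apply]
        exact Quotient.mk_out (s := orbitRel (zpowers g) I) i
      obtain ⟨⟨_, k, rfl⟩, hk⟩ := h1
      refine ⟨-k, ?_⟩
      have h2 : (Quotient.mk (orbitRel (zpowers g) I) i).out = g ^ k • i := hk.symm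
      show g ^ (-k) • (Quotient.mk (orbitRel (zpowers g) I) i).out = i
      rw [h2, smul_smul, ← zpow_add, neg_add_cancel, zpow_zero, one_smul]
    · have h1 : Quotient.mk (orbitRel (zpowers g) I) (g ^ k • i) = Quotient.mk (orbitRel (zpowers g) I) i := by
        apply Quotient.sound
        show orbitRel (zpowers g) I _ _
        rw [orbitRel_apply]
        exact ⟨⟨g ^ k, k, rfl⟩, rfl⟩
      show (Quotient.mk (orbitRel (zpowers g) I) (g ^ k • i)).out = _
      rw [h1]
  have hrr : ∀ i, r (r i) = r i := by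
    intro i
    obtain ⟨k, hk⟩ := hr1 i
    conv_rhs => rw [← hk, hr2]
  obtain ⟨l, hl⟩ : ∃ l : I → ℕ, l = fun i => period g i := ⟨_, rfl⟩
  have hlpos : ∀ i, 0 < l i := fun i => by
    rw [hl]
    exact period_pos_of_orderOf_pos (orderOf_pos g) i
  have hdvd : ∀ (k : ℤ) i, g ^ k • i = i ↔ (l i : ℤ) ∣ k := fun k i => by
    rw [hl]
    exact zpow_smul_eq_iff_period_dvd
  -- the exponents
  have hex : ∀ i, ∃ n : ℤ, 0 ≤ n ∧ n < l (r i) ∧ g ^ n • r i = i := by
    intro i
    obtain ⟨k, hk⟩ := hr1 i
    have hl0 : (0 : ℤ) < l (r i) := by exact_mod_cast hlpos (r i)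
    refine ⟨k % (l (r i) : ℤ), Int.emod_nonneg _ hl0.ne', Int.emod_lt_of_pos _ hl0, ?_⟩
    rw [hl]
    show g ^ (k % (period g (r i) : ℤ)) • r i = i
    rw [zpow_mod_period_smul]
    exact hk
  choose n hn0 hnl hn using hex
  -- the regular points
  have hreg : ∀ i, ∃ d, π d = i ∧ ∀ k : ℤ, (g ^ l i) ^ k • d = d → ∀ y, π y = i → (g ^ l i) ^ k • y = y := fun i =>
    h i (l i) (by
      have := (hdvd (l i : ℤ) i).2 dvd_rfl
      rwa [zpow_natCast] at this)
  choose d hd1 hd2 using hreg
  have hne' : ∀ i, ∃ d', d' ≠ d i ∧ π d' = i := by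
    intro i
    obtain ⟨x, y, hxy, hx, hy⟩ := hne i
    by_cases hxd : x = d i
    · exact ⟨y, fun h => hxy (hxd.trans h.symm), hy⟩
    · exact ⟨x, hxd, hx⟩
  choose d' hd'1 hd'2 using hne'
  let Tr : I → Prop := fun i => ∀ y, π y = i → g ^ l i • y = y
  let y : I → X := fun i => if Tr (r i) ∧ i ≠ r i then d' (r i) else d (r i)
  have hyπ : ∀ i, π (y i) = r i := by
    intro i
    show π (if Tr (r i) ∧ i ≠ r i then d' (r i) else d (r i)) = r i
    split_ifs
    · exact hd'2 _
    · exact hd1 _
  refine ⟨fun i => g ^ n i • y i, fun i => ?_, fun k hk => ?_⟩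
  · show π (g ^ n i • y i) = i
    rw [hπ, hyπ, hn]
  · -- the fibre over a representative
    have key : ∀ i0, r i0 = i0 → ∀ x, π x = i0 → g ^ k • x = x := by
      intro i0 hi0
      have hmul : ∀ j : ℤ, (l i0 : ℤ) ∣ j → g ^ j • d i0 = d i0 → ∀ x, π x = i0 → g ^ j • x = x := by
        rintro _ ⟨j, rfl⟩ hj x hx
        rw [zpow_mul, zpow_natCast] at hj ⊢
        exact hd2 i0 j hj x hx
      have hn0' : n i0 = 0 := by
        have h1 : (l i0 : ℤ) ∣ n i0 := by
          rw [← hdvd]
          have h2 := hn i0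
          rwa [hi0] at h2
        have h2 := hnl i0
        rw [hi0] at h2
        exact Int.eq_zero_of_dvd_of_nonneg_of_lt (hn0 i0) h2 h1
      have hy0 : y i0 = d i0 := by
        show (if Tr (r i0) ∧ i0 ≠ r i0 then d' (r i0) else d (r i0)) = d i0
        rw [if_neg (fun h => h.2 hi0.symm), hi0]
      -- the two equations
      have hA : g ^ n (g ^ k • i0) • y (g ^ k • i0) = g ^ k • d i0 := by
        have h1 := hk i0
        simp only [hn0', zpow_zero, one_smul, hy0] at h1
        exact h1
      have hrk : r (g ^ k • i0) = i0 := by rw [hr2, hi0]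
      have hrk' : r (g ^ (-k) • i0) = i0 := by rw [hr2, hi0]
      have hu := hn (g ^ k • i0)
      have hv := hn (g ^ (-k) • i0)
      rw [hrk] at hu
      rw [hrk'] at hv
      have hul := hnl (g ^ k • i0)
      have hvl := hnl (g ^ (-k) • i0)
      rw [hrk] at hul
      rw [hrk'] at hvl
      have hu0 := hn0 (g ^ k • i0)
      have hv0 := hn0 (g ^ (-k) • i0)
      have hB : d i0 = g ^ k • g ^ n (g ^ (-k) • i0) • y (g ^ (-k) • i0) := by
        have h1 := hk (g ^ (-k) • i0)
        have e1 : g ^ k • g ^ (-k) • i0 = i0 := by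
          rw [smul_smul, ← zpow_add, add_neg_cancel, zpow_zero, one_smul]
        rw [e1] at h1
        simp only [hn0', zpow_zero, one_smul, hy0] at h1
        exact h1
      set u := n (g ^ k • i0) with hudef
      set v := n (g ^ (-k) • i0) with hvdef
      by_cases hTr : Tr i0
      · -- `g ^ l` is trivial on the fibre
        have hku : (l i0 : ℤ) ∣ k - u := by
          rw [← hdvd, sub_eq_neg_add, zpow_add, mul_smul, ← hu, smul_smul, ← zpow_add, neg_add_cancel, zpow_zero,
            one_smul]
        have hmul' : ∀ j : ℤ, (l i0 : ℤ) ∣ j → ∀ x, π x = i0 → g ^ j • x = x := by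
          rintro _ ⟨j, rfl⟩ x hx
          rw [zpow_mul, zpow_natCast]
          exact zpow_trivial (P := fun x => π x = i0) hTr j x hx
        have h1 : y (g ^ k • i0) = d i0 := by
          have h2 : g ^ (-u) • g ^ u • y (g ^ k • i0) = g ^ (-u) • g ^ k • d i0 := by rw [hA]
          rw [smul_smul, ← zpow_add, neg_add_cancel, zpow_zero, one_smul, smul_smul, ← zpow_add,
            ← sub_eq_neg_add] at h2
          rw [h2]
          exact hmul' _ hku _ (hd1 i0)
        have h2 : g ^ k • i0 = i0 := by
          by_contra hne2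
          have h3 : y (g ^ k • i0) = d' i0 := by
            show (if Tr (r (g ^ k • i0)) ∧ g ^ k • i0 ≠ r (g ^ k • i0) then d' (r (g ^ k • i0))
              else d (r (g ^ k • i0))) = d' i0
            rw [hrk, if_pos ⟨hTr, hne2⟩]
          exact hd'1 i0 (h3.symm.trans h1)
        exact hmul' k ((hdvd k i0).1 h2)
      · have hyd : ∀ i, r i = i0 → y i = d i0 := by
          intro i hi
          show (if Tr (r i) ∧ i ≠ r i then d' (r i) else d (r i)) = d i0
          rw [hi, if_neg (fun h => hTr h.1)]
        rw [hyd _ hrk] at hA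
        rw [hyd _ hrk'] at hB
        have huv : g ^ (u + v) • d i0 = d i0 := by
          rw [add_comm, zpow_add, mul_smul, hA, smul_smul, ← zpow_add, add_comm, zpow_add, mul_smul]
          exact hB.symm
        have huvi : (l i0 : ℤ) ∣ u + v := by
          rw [← hdvd, add_comm, zpow_add, mul_smul, hu, smul_smul, ← zpow_add, add_comm, zpow_add, mul_smul, hv,
            smul_smul, ← zpow_add, add_neg_cancel, zpow_zero, one_smul]
        obtain ⟨w, hw⟩ := huvi
        have hl0 : (0 : ℤ) < l i0 := by exact_mod_cast hlpos i0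
        have hw2 : w < 2 := by
          by_contra h2
          push Not at h2
          have : (l i0 : ℤ) * 2 ≤ l i0 * w := mul_le_mul_of_nonneg_left h2 hl0.le
          omega
        have hw0 : 0 ≤ w := by
          by_contra h2
          push Not at h2
          have : (l i0 : ℤ) * w < 0 := mul_neg_of_pos_of_neg hl0 h2
          omega
        have hw1 : w ≠ 1 := by
          rintro rfl
          apply hTr
          intro x hx
          have h1 := hmul (l i0) dvd_rfl (by rw [mul_one] at hw; rw [← hw]; exact huv) x hx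
          rwa [zpow_natCast] at h1
        have hw' : w = 0 := by omega
        rw [hw', mul_zero] at hw
        have hu' : u = 0 := by omega
        rw [hu', zpow_zero, one_smul] at hA hu
        exact hmul k ((hdvd k i0).1 hu.symm) hA.symm
    intro x
    have h1 := hn (π x)
    have h2 : π (g ^ (-(n (π x))) • x) = r (π x) := by
      rw [hπ]
      conv_lhs => rw [← h1]
      rw [h1, smul_eq_iff_eq_inv_smul, ← zpow_neg, neg_neg, h1]
    have h3 := key (r (π x)) (hrr _) _ h2
    have h4 : g ^ n (π x) • g ^ k • g ^ (-(n (π x))) • x = g ^ n (π x) • g ^ (-(n (π x))) • x := by rw [h3]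
    rw [smul_smul, smul_smul, smul_smul, ← zpow_add, ← zpow_add, ← zpow_add, add_neg_cancel, zpow_zero, one_smul] at h4
    have e : n (π x) + (k + -n (π x)) = k := by ring
    rwa [add_assoc, e] at h4

end Cfsg.Agent.H660.RR
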