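import Cfsg.Agent.H660.RR.Crd
import Cfsg.Agent.H660.RR.Hol

/-!
# S3509: the product case (helper660)

* `product_case` : all classes of factors are singletons; the components are primitive with simple socle (row `ASRow`) or
  have a regular simple normal subgroup.
-/

set_option autoImplicit false

namespace Cfsg.Agent.H660.RR

open Subgroup MulAction Cfsg.Agent.H893 Cfsg.Agent.H893.Fac

section gen

variable {G Ω I X : Type*} [Group G] [MulAction G Ω] [MulAction G I] [MulAction G X]
  {N : Subgroup G} {m : ℕ} {T : Fin m → Subgroup G} {e : N ≃* (∀ i, T i)} {hf : Fac N m T e}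
  {c : Fin m → Fin m} {π : X → I} {ev : Ω → I → X} {jj : Fin m → I}

/-- the index set is homogeneous -/
theorem Crd.pretransitive (C : Crd hf c π ev jj) : IsPretransitive G I := by
  refine ⟨fun i j => ?_⟩
  obtain ⟨a, rfl⟩ := C.jsurj i
  obtain ⟨b, rfl⟩ := C.jsurj j
  obtain ⟨g, hg⟩ := hf.trans a b
  refine ⟨g, ?_⟩
  rw [C.jperm]
  congr 1
  apply hf.inj
  rw [hf.perm_spec, hg]

theorem Crd.hK (C : Crd hf c π ev jj) (htr : ∀ w v : Ω, ∃ n : N, v = (n : G) • w) :
    ∀ w w' : Ω, ∃ n : G, (∀ i : I, n • i = i) ∧ n • w = w' := by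
  intro w w'
  obtain ⟨n, hn⟩ := htr w w'
  exact ⟨n, C.smul_I n, hn.symm⟩

end gen

variable {G Ω I X : Type} [Group G] [MulAction G Ω] [MulAction G I] [MulAction G X]
  {N : Subgroup G} {m : ℕ} {T : Fin m → Subgroup G} {e : N ≃* (∀ i, T i)} {hf : Fac N m T e}
  {π : X → I} {ev : Ω → I → X} {jj : Fin m → I}

/-- the component -/
theorem Crd.comp [FaithfulSMul G Ω] [Nonempty Ω] [Finite X] (C : Crd hf id π ev jj) (hp : IsPreprimitive G Ω)
    (htr : ∀ w v : Ω, ∃ n : N, v = (n : G) • w) (hAS : ASRow (fun _ _ => True)) (a : Fin m) :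
    (∀ l : (rho C.dec.hπ (jj a)).range, ∃ x : {x : X // π x = jj a}, ∀ k : ℤ, l ^ k • x = x → l ^ k = 1) ∨
      KSet (Ω := {x : X // π x = jj a}) (ph C (jj a) a).range := by
  have hprim : IsPreprimitive (rho C.dec.hπ (jj a)).range {x : X // π x = jj a} :=
    C.dec.primitive hp C.pretransitive (C.hK htr) (jj a)
  have hne : Nonempty {x : X // π x = jj a} := by
    obtain ⟨w⟩ := (inferInstance : Nonempty Ω)
    exact ⟨⟨ev w (jj a), C.dec.hev w _⟩⟩
  have hsimple : IsSimpleGroup (ph C (jj a) a).range := C.simple rfl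
  have hnorm : ((ph C (jj a) a).range).Normal := by
    refine ⟨fun t ht x => ?_⟩
    obtain ⟨_, x0, rfl⟩ := x
    have hpa : hf.perm x0 a = a := by
      have h1 := C.jperm x0 a
      rw [show (x0 : G) • jj a = jj a from x0.2] at h1
      exact ((C.jiff _ _).1 h1).symm
    have h1 := C.conj_range (a := a) (l := a) x0
    rw [hpa] at h1
    rw [h1]
    exact ⟨t, ht, rfl⟩
  have hTtr : ∀ x y : {x : X // π x = jj a}, ∃ t ∈ (ph C (jj a) a).range, t • x = y := by
    intro x y
    obtain ⟨n, hn⟩ := C.tr htr x.2 y.2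
    refine ⟨ph C (jj a) a (e n a), ⟨_, rfl⟩, ?_⟩
    apply Subtype.ext
    show ((e n a : T a) : G) • (x : X) = y
    rw [← hn]
    have h1 := C.congr (a := a) (n := Subgroup.inclusion (hf.le a) (e n a)) (n' := n) (fun l hl => by
      have hl' : l = a := hl
      subst hl'
      rw [C.e_incl, Pi.mulSingle_eq_same]) x.2
    exact h1
  by_cases hreg : ∀ t ∈ (ph C (jj a) a).range, ∀ x : {x : X // π x = jj a}, t • x = x → t = 1
  · left
    intro l
    exact hol_reg (ph C (jj a) a).range hTtr hreg l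
  · have hcent : centralizer ((ph C (jj a) a).range : Set (rho C.dec.hπ (jj a)).range) = ⊥ := by
      by_contra hC
      obtain ⟨htrC, -, -⟩ := prim_normal hprim (centralizer ((ph C (jj a) a).range : Set (rho C.dec.hπ (jj a)).range)) hC
      apply hreg
      intro t ht x hx
      apply FaithfulSMul.eq_of_smul_eq_smul (α := {x : X // π x = jj a})
      intro y
      obtain ⟨u, rfl⟩ := htrC.exists_smul_eq x y
      rw [one_smul]
      have h1 : t * (u : (rho C.dec.hπ (jj a)).range) = u * t := mem_centralizer_iff.1 u.2 t ht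
      show t • (u : (rho C.dec.hπ (jj a)).range) • x = (u : (rho C.dec.hπ (jj a)).range) • x
      rw [smul_smul, h1, mul_smul, hx]
    by_cases hK : KSet (Ω := {x : X // π x = jj a}) (ph C (jj a) a).range
    · exact Or.inr hK
    · left
      intro l
      rcases hAS (rho C.dec.hπ (jj a)).range {x : X // π x = jj a} hprim (ph C (jj a) a).range hsimple
        (C.nonab rfl) hcent trivial l with h | h
      · exact (reg_iff l).1 h
      · exact absurd h hK

/-- the hypothesis of `Dec.concl` -/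
theorem Crd.hT [Nonempty Ω] (C : Crd hf id π ev jj) (a : Fin m) :
    ∀ g : I → G, (∀ i, g i • jj a = i) → ∀ t : I → (ph C (jj a) a).range, ∃ x : G, (∀ i : I, x • i = i) ∧
      ∀ (i : I) (y : {x : X // π x = jj a}), x • g i • (y : X) =
        g i • (((((t i : (rho C.dec.hπ (jj a)).range) : Equiv.Perm {x : X // π x = jj a}) y) :
          {x : X // π x = jj a}) : X) := by
  intro g hg t
  choose s hs using fun i => (t i).2
  have hr : ∀ b : Fin m, g (jj b) * (s (jj b) : G) * (g (jj b))⁻¹ ∈ T b := by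
    intro b
    have h1 : hf.perm (g (jj b)) a = b := by
      have h2 := C.jperm (g (jj b)) a
      rw [hg] at h2
      exact ((C.jiff _ _).1 h2).symm
    have h3 := hf.perm_spec (g (jj b)) a
    rw [h1] at h3
    rw [h3]
    exact ⟨s (jj b), (s (jj b)).2, rfl⟩
  refine ⟨(e.symm (fun b => ⟨_, hr b⟩) : N), C.smul_I _, fun i y => ?_⟩
  obtain ⟨b, rfl⟩ := C.jsurj i
  have h1 := C.congr (a := b) (n := e.symm (fun b => ⟨_, hr b⟩)) (n' := Subgroup.inclusion (hf.le b) ⟨_, hr b⟩)
    (fun l hl => by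
      have hl' : l = b := hl
      subst hl'
      rw [C.e_incl, Pi.mulSingle_eq_same, MulEquiv.apply_symm_apply]) (x := g (jj b) • (y : X))
    (by rw [C.dec.hπ, y.2, hg])
  rw [h1]
  show (g (jj b) * (s (jj b) : G) * (g (jj b))⁻¹) • g (jj b) • (y : X) = _
  rw [← hs]
  show _ = g (jj b) • (s (jj b) : G) • (y : X)
  rw [smul_smul, smul_smul]
  congr 1
  group

/-- **the product case** -/
theorem product_case [Finite G] [FaithfulSMul G Ω] [Nonempty Ω] [Finite X] (C : Crd hf id π ev jj)
    (hp : IsPreprimitive G Ω) (htr : ∀ w v : Ω, ∃ n : N, v = (n : G) • w)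
    (hne : ∀ i, ∃ x y : X, x ≠ y ∧ π x = i ∧ π y = i) (hAS : ASRow (fun _ _ => True)) (g : G) :
    (∃ ω : Ω, stabilizer (zpowers g) ω = ⊥) ∨ PAlt G Ω := by
  have hI : Finite I := Finite.of_surjective _ C.jsurj
  by_cases hK : ∃ a, KSet (Ω := {x : X // π x = jj a}) (ph C (jj a) a).range
  · right
    obtain ⟨a, ha⟩ := hK
    exact C.dec.concl C.pretransitive (jj a) _ ha (C.hT a)
  · left
    push Not at hK
    refine C.dec.reg hne g fun i n hin => ?_
    obtain ⟨a, rfl⟩ := C.jsurj i
    rcases C.comp hp htr hAS a with h | h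
    · obtain ⟨x, hx⟩ := h ⟨rho C.dec.hπ (jj a) ⟨g ^ n, hin⟩, _, rfl⟩
      exact Crd.regP_of C.dec hin x fun k hk => congrArg Subtype.val (hx k (by exact hk))
    · exact absurd h (hK a)

end Cfsg.Agent.H660.RR
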